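import Mathlib

/-!
Counting automorphism orbits: the number of orbits of `MulAut G` on `G` is the sum of the
reciprocal orbit sizes; three-level estimates; the case of groups of class at least three
in the Laffey--MacHale bound.
-/

set_option autoImplicit false

namespace Cfsg.Agent.Lib.Nilpotent.AutOrbits

open MulAction

variable {G : Type*} [Group G]

/-- The automorphism orbit of an element. -/
abbrev orb (x : G) : Set G := orbit (MulAut G) x

theorem mem_orb_self (x : G) : x ∈ orb x := mem_orbit_self x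

theorem orb_eq_of_mem {x y : G} (h : y ∈ orb x) : orb y = orb x :=
  (MulAction.orbit_eq_iff).2 h

theorem apply_mem_orb (α : MulAut G) (x : G) : α x ∈ orb x := ⟨α, rfl⟩

theorem conj_mem_orb (y x : G) : y * x * y⁻¹ ∈ orb x := ⟨MulAut.conj y, rfl⟩

theorem mem_orb_trans {x y z : G} (hy : y ∈ orb x) (hz : z ∈ orb y) : z ∈ orb x := by
  rw [orb_eq_of_mem hy] at hz; exact hz

variable [Finite G]

theorem ncard_orb_pos (x : G) : 0 < (orb x).ncard :=
  (Set.ncard_pos (Set.toFinite _)).2 ⟨x, mem_orb_self x⟩

/-- The number of orbits is the sum of the reciprocals of the orbit sizes. -/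
theorem card_orbits_eq_sum [Fintype G] :
    ((Nat.card (orbitRel.Quotient (MulAut G) G) : ℕ) : ℚ) =
      ∑ x : G, 1 / (((orb x).ncard : ℕ) : ℚ) := by
  classical
  haveI : Fintype (orbitRel.Quotient (MulAut G) G) := Fintype.ofFinite _
  let e := MulAction.selfEquivSigmaOrbits (MulAut G) G
  rw [← Equiv.sum_comp e.symm, Fintype.sum_sigma, Nat.card_eq_fintype_card,
    Fintype.card_eq_sum_ones]
  push_cast
  refine Finset.sum_congr rfl (fun ω _ => ?_)
  have hconst : ∀ y : orbit (MulAut G) (Quotient.out ω),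
      1 / (((orb (e.symm ⟨ω, y⟩)).ncard : ℕ) : ℚ) =
        1 / (((orb (Quotient.out ω)).ncard : ℕ) : ℚ) := by
    intro y
    have : e.symm ⟨ω, y⟩ = (y : G) := rfl
    rw [this, orb_eq_of_mem y.2]
  simp only [hconst]
  rw [Finset.sum_const, Finset.card_univ, nsmul_eq_mul]
  have hpos : (0 : ℚ) < ((orb (Quotient.out ω)).ncard : ℕ) := by
    exact_mod_cast ncard_orb_pos _
  have hcard : (Fintype.card (orbit (MulAut G) (Quotient.out ω))) =
      (orb (Quotient.out ω)).ncard := by
    rw [← Nat.card_eq_fintype_card, Nat.card_coe_set_eq]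
  rw [hcard]
  field_simp

/-- A sum bounded on three levels. -/
theorem sum_le_three_level [Fintype G] (S T : Subgroup G) (hST : S ≤ T) (f : G → ℚ) (a b c : ℚ)
    (h1 : ∀ x ∈ S, f x ≤ a) (h2 : ∀ x ∈ T, x ∉ S → f x ≤ b) (h3 : ∀ x, x ∉ T → f x ≤ c) :
    ∑ x, f x ≤ a * (Nat.card S : ℚ) + b * ((Nat.card T : ℚ) - Nat.card S) +
      c * ((Nat.card G : ℚ) - Nat.card T) := by
  classical
  have hle : ∀ x, f x ≤ c + (b - c) * (if x ∈ T then (1 : ℚ) else 0) +
      (a - b) * (if x ∈ S then (1 : ℚ) else 0) := by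
    intro x
    by_cases hxS : x ∈ S
    · simp only [hxS, hST hxS, if_true]; linarith [h1 x hxS]
    · by_cases hxT : x ∈ T
      · simp only [hxS, hxT, if_true, if_false]; linarith [h2 x hxT hxS]
      · simp only [hxS, hxT, if_false]; linarith [h3 x hxT]
  have hcard : ∀ K : Subgroup G, ∑ x : G, (if x ∈ K then (1 : ℚ) else 0) = Nat.card K := by
    intro K
    rw [Finset.sum_boole, Nat.card_eq_fintype_card, Fintype.card_subtype]
  calc ∑ x, f x ≤ ∑ x, (c + (b - c) * (if x ∈ T then (1 : ℚ) else 0) +
        (a - b) * (if x ∈ S then (1 : ℚ) else 0)) := Finset.sum_le_sum (fun x _ => hle x)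
    _ = c * Nat.card G + (b - c) * Nat.card T + (a - b) * Nat.card S := by
        simp only [Finset.sum_add_distrib, ← Finset.mul_sum, hcard, Finset.sum_const,
          Finset.card_univ, nsmul_eq_mul, Nat.card_eq_fintype_card]
        ring
    _ = _ := by ring

/-- Elements conjugate to `x` lie in the orbit: the class size is at most the orbit size. -/
theorem index_centralizer_le (x : G) :
    (Subgroup.centralizer {x}).index ≤ (orb x).ncard := by
  have h1 : (Subgroup.centralizer ({x} : Set G)).index = (orbit (ConjAct G) x).ncard := by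
    rw [← MulAction.index_stabilizer, Subgroup.centralizer_eq_comap_stabilizer]
    exact Subgroup.index_comap_of_surjective _ (ConjAct.toConjAct (G := G)).surjective
  rw [h1]
  apply Set.ncard_le_ncard _ (Set.toFinite _)
  rintro _ ⟨g, rfl⟩
  change ConjAct.ofConjAct g * x * (ConjAct.ofConjAct g)⁻¹ ∈ orb x
  exact conj_mem_orb _ _

/-- If `x * c ^ i` lies in the orbit for all `i`, the order of `c` is at most the orbit size. -/
theorem orderOf_le_ncard_orb {x c : G} (H : ∀ i : ℕ, x * c ^ i ∈ orb x) :
    orderOf c ≤ (orb x).ncard := by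
  classical
  have hpos : 0 < orderOf c := orderOf_pos c
  let f : Fin (orderOf c) → orb x := fun i => ⟨x * c ^ (i : ℕ), H _⟩
  have hf : Function.Injective f := by
    intro i j hij
    have h1 : x * c ^ (i : ℕ) = x * c ^ (j : ℕ) := congrArg Subtype.val hij
    have h2 : c ^ (i : ℕ) = c ^ (j : ℕ) := mul_left_cancel h1
    exact Fin.ext (pow_injOn_Iio_orderOf (Set.mem_Iio.2 i.2) (Set.mem_Iio.2 j.2) h2)
  have h3 := Nat.card_le_card_of_injective f hf
  rwa [Nat.card_eq_fintype_card, Fintype.card_fin, Nat.card_coe_set_eq] at h3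

/-- If `x * h ^ k * c ^ l` lies in the orbit for all `k, l`, where `c` has order `q` and the
`h ^ j`, `0 < j < q` avoid `⟨c⟩`, the orbit has at least `q * q` elements. -/
theorem mul_self_le_ncard_orb {q : ℕ} {x c h : G} (hc : orderOf c = q)
    (hj : ∀ j : ℕ, 0 < j → j < q → h ^ j ∉ Subgroup.zpowers c)
    (H : ∀ k l : ℕ, x * h ^ k * c ^ l ∈ orb x) : q * q ≤ (orb x).ncard := by
  classical
  let f : Fin q × Fin q → orb x := fun i => ⟨x * h ^ (i.1 : ℕ) * c ^ (i.2 : ℕ), H _ _⟩
  have key : ∀ (k k' l l' : ℕ), k < q → k' < q → k ≤ k' → h ^ k * c ^ l = h ^ k' * c ^ l' →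
      k = k' := by
    intro k k' l l' _ hk' hle heq
    by_contra hne
    have hlt : 0 < k' - k := by omega
    have hlt2 : k' - k < q := by omega
    apply hj _ hlt hlt2
    have h1 : h ^ k' = h ^ k * h ^ (k' - k) := by rw [← pow_add]; congr 1; omega
    rw [h1, mul_assoc] at heq
    have h2 := mul_left_cancel heq
    have h3 : h ^ (k' - k) = c ^ l * (c ^ l')⁻¹ := by
      rw [h2]; group
    rw [h3]
    exact Subgroup.mul_mem _ (Subgroup.npow_mem_zpowers _ _) (Subgroup.inv_mem _
      (Subgroup.npow_mem_zpowers _ _))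
  have hf : Function.Injective f := by
    rintro ⟨⟨k, hk⟩, ⟨l, hl⟩⟩ ⟨⟨k', hk'⟩, ⟨l', hl'⟩⟩ hij
    have h1 : x * h ^ k * c ^ l = x * h ^ k' * c ^ l' := congrArg Subtype.val hij
    have h2 : h ^ k * c ^ l = h ^ k' * c ^ l' := by
      rw [mul_assoc, mul_assoc] at h1; exact mul_left_cancel h1
    have hkk : k = k' := by
      rcases le_total k k' with hle | hle
      · exact key k k' l l' hk hk' hle h2
      · exact (key k' k l' l hk' hk hle h2.symm).symm
    subst hkk
    have h3 : c ^ l = c ^ l' := mul_left_cancel h2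
    have hll : l = l' :=
      pow_injOn_Iio_orderOf (Set.mem_Iio.2 (hc ▸ hl)) (Set.mem_Iio.2 (hc ▸ hl')) h3
    subst hll
    rfl
  have h3 := Nat.card_le_card_of_injective f hf
  rwa [Nat.card_prod, Nat.card_eq_fintype_card, Fintype.card_fin, Nat.card_coe_set_eq] at h3

/-- The master estimate for a `q`-group: if everything off `S` has orbit of size at least `q`,
everything off `M` has orbit of size at least `q ^ 2`, and `q |S| + |M| ≤ |G|`, then
the number of orbits times `q` is at most `|G|`. -/
theorem master {q : ℕ} (hq : 0 < q) (S M : Subgroup G) (hSM : S ≤ M)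
    (h1 : ∀ x, x ∉ S → q ≤ (orb x).ncard)
    (h2 : ∀ x, x ∉ M → q * q ≤ (orb x).ncard)
    (hcount : q * Nat.card S + Nat.card M ≤ Nat.card G) :
    Nat.card (orbitRel.Quotient (MulAut G) G) * q ≤ Nat.card G := by
  classical
  haveI : Fintype G := Fintype.ofFinite G
  have hqQ : (0 : ℚ) < q := by exact_mod_cast hq
  have hbound := sum_le_three_level S M hSM (fun x => 1 / (((orb x).ncard : ℕ) : ℚ))
    1 (1 / (q : ℚ)) (1 / ((q * q : ℕ) : ℚ))
    (by
      intro x _
      have : (1 : ℚ) ≤ ((orb x).ncard : ℕ) := by exact_mod_cast ncard_orb_pos x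
      exact (div_le_one (by linarith)).2 this)
    (by
      intro x _ hxS
      have : ((q : ℕ) : ℚ) ≤ ((orb x).ncard : ℕ) := by exact_mod_cast h1 x hxS
      exact one_div_le_one_div_of_le hqQ this)
    (by
      intro x hxM
      have : (((q * q : ℕ)) : ℚ) ≤ ((orb x).ncard : ℕ) := by exact_mod_cast h2 x hxM
      have h0 : (0 : ℚ) < ((q * q : ℕ) : ℚ) := by
        have := Nat.mul_pos hq hq
        exact_mod_cast this
      exact one_div_le_one_div_of_le h0 this)
  rw [← card_orbits_eq_sum] at hbound
  have hcount' : (q : ℚ) * Nat.card S + Nat.card M ≤ Nat.card G := by exact_mod_cast hcount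
  have hfin : ((Nat.card (orbitRel.Quotient (MulAut G) G) * q : ℕ) : ℚ) ≤ (Nat.card G : ℚ) := by
    push_cast at hbound ⊢
    have hq1 : (1 : ℚ) ≤ (q : ℚ) := by exact_mod_cast hq
    set w : ℚ := (Nat.card (orbitRel.Quotient (MulAut G) G) : ℚ)
    set s : ℚ := (Nat.card S : ℚ)
    set m : ℚ := (Nat.card M : ℚ)
    set n : ℚ := (Nat.card G : ℚ)
    set r : ℚ := (q : ℚ)
    have h3 : w * r ≤ (1 * s + 1 / r * (m - s) + 1 / (r * r) * (n - m)) * r :=
      mul_le_mul_of_nonneg_right hbound hqQ.le
    have h4 : (1 * s + 1 / r * (m - s) + 1 / (r * r) * (n - m)) * r =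
        s * r + (m - s) + (n - m) / r := by
      field_simp
    have h5 : s * r + (m - s) + (n - m) / r ≤ n := by
      have h6 : (n - m) / r ≤ n - (s * r + (m - s)) := by
        rw [div_le_iff₀ hqQ]
        nlinarith [mul_nonneg (sub_nonneg.2 hq1) (sub_nonneg.2 hcount')]
      linarith
    linarith
  exact_mod_cast hfin

/-- Arithmetic core of the class-three case. -/
theorem arith_partA {p z l n : ℕ} (hp : p.Prime) (hz : 0 < z) (hzl : z ∣ l) (hln : l ∣ n)
    (hn : 0 < n) (hlne : l ≠ n) (hdiv : ∀ m, m ∣ n → m ≠ 1 → p ≤ m)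
    (hA : ¬ (n / z).Prime) (hB : n / z ≠ p ^ 2) : p * p * z + l ≤ n + z := by
  obtain ⟨e, rfl⟩ := hzl
  obtain ⟨g, rfl⟩ := hln
  have hepos : 0 < e := by
    rcases Nat.eq_zero_or_pos e with h | h
    · subst h; simp at hn
    · exact h
  have hgpos : 0 < g := by
    rcases Nat.eq_zero_or_pos g with h | h
    · subst h; simp at hn
    · exact h
  have hq : z * e * g / z = e * g := by
    rw [mul_assoc]; exact Nat.mul_div_cancel_left _ hz
  rw [hq] at hA hB
  have hg1 : g ≠ 1 := by
    rintro rfl
    exact hlne (by ring)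
  have hgp : p ≤ g := hdiv g (Dvd.intro_left _ rfl) hg1
  rcases eq_or_ne e 1 with rfl | he1
  · -- `g` is not prime
    rw [one_mul] at hA hB
    have hr := Nat.minFac_prime hg1
    obtain ⟨s, hs⟩ := Nat.minFac_dvd g
    have hs1 : s ≠ 1 := by
      rintro rfl
      apply hA
      rw [hs, mul_one]; exact hr
    have hrp : p ≤ g.minFac := hdiv _ (Dvd.dvd.trans (Nat.minFac_dvd g) (Dvd.intro_left _ rfl)) hr.ne_one
    have hsp : p ≤ s := hdiv s (Dvd.dvd.trans (Dvd.intro_left _ hs.symm) (Dvd.intro_left _ rfl)) hs1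
    have h1 : p * p ≤ g := by
      calc p * p ≤ g.minFac * s := Nat.mul_le_mul hrp hsp
        _ = g := hs.symm
    nlinarith
  · have hep : p ≤ e := hdiv e (Dvd.dvd.trans (Dvd.intro_left _ rfl) (Dvd.intro _ rfl)) he1
    have hkey : p * p + e ≤ e * g + 1 := by
      rcases Nat.lt_or_ge p g with hlt | hge
      · have h1 : p + 1 ≤ g := hlt
        have h2 : e * (p + 1) ≤ e * g := Nat.mul_le_mul_left _ h1
        have h3 : p * p ≤ e * p := Nat.mul_le_mul_right _ hep
        nlinarith
      · have hgeq : g = p := le_antisymm hge hgp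
        subst hgeq
        have hne : e ≠ g := by
          rintro rfl
          exact hB (by ring)
        have hlt : g + 1 ≤ e := lt_of_le_of_ne hep (Ne.symm hne)
        obtain ⟨f, rfl⟩ := Nat.exists_eq_add_of_le hlt
        nlinarith [Nat.zero_le f, Nat.zero_le g, hp.one_lt]
    nlinarith

/-- The class-at-least-three case of the Laffey--MacHale estimate. -/
theorem partA (hna : ¬ commutator G ≤ Subgroup.center G) :
    Nat.card (orbitRel.Quotient (MulAut G) G) * (Nat.card G).minFac ≤ Nat.card G := by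
  classical
  haveI : Fintype G := Fintype.ofFinite G
  have hn1 : Nat.card G ≠ 1 := by
    intro h
    haveI : Subsingleton G := (Nat.card_eq_one_iff_unique.1 h).1
    exact hna (fun x _ => by
      rw [Subsingleton.elim x 1]; exact Subgroup.one_mem _)
  have hnpos : 0 < Nat.card G := Nat.card_pos
  have hp : (Nat.card G).minFac.Prime := Nat.minFac_prime hn1
  obtain ⟨p, hpdef⟩ : ∃ p, p = (Nat.card G).minFac := ⟨_, rfl⟩
  rw [← hpdef] at hp ⊢
  haveI : Fact p.Prime := ⟨hp⟩
  have hdiv : ∀ m, m ∣ Nat.card G → m ≠ 1 → p ≤ m := by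
    intro m hm hm1
    rw [hpdef]
    have hm0 : m ≠ 0 := fun h => by
      subst h
      rw [zero_dvd_iff] at hm
      omega
    exact Nat.minFac_le_of_dvd (by omega) hm
  let Z : Subgroup G := Subgroup.center G
  let L : Subgroup G := Subgroup.centralizer (commutator G : Set G)
  have hZL : Z ≤ L := Subgroup.center_le_centralizer _
  have hLne : L ≠ ⊤ := by
    intro h
    apply hna
    intro c hc
    rw [Subgroup.mem_center_iff]
    intro g
    have hg : g ∈ L := by rw [h]; trivial
    exact ((Subgroup.mem_centralizer_iff.1 hg) c hc).symm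
  have hbig : ∀ x, x ∉ Z → p ≤ (orb x).ncard := by
    intro x hx
    refine le_trans (hdiv _ (Subgroup.index_dvd_card _) ?_) (index_centralizer_le x)
    intro h
    apply hx
    rw [Subgroup.index_eq_one] at h
    change x ∈ Subgroup.center G
    rw [Subgroup.mem_center_iff]
    intro g
    have hg : g ∈ Subgroup.centralizer ({x} : Set G) := by rw [h]; trivial
    exact Subgroup.mem_centralizer_singleton_iff.1 hg
  have hbig2 : ∀ x, x ∉ L → p + 1 ≤ (orb x).ncard := by
    intro x hx
    have hxZ : x ∉ Z := fun h => hx (hZL h)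
    have h0 : (Subgroup.centralizer ({x} : Set G)).index ≠ p := by
      intro h
      haveI hN : (Subgroup.centralizer ({x} : Set G)).Normal :=
        Subgroup.normal_of_index_eq_minFac_card (h.trans hpdef)
      have hcard : Nat.card (G ⧸ Subgroup.centralizer ({x} : Set G)) = p := h
      haveI : IsCyclic (G ⧸ Subgroup.centralizer ({x} : Set G)) :=
        isCyclic_of_prime_card hcard
      have hcomm : commutator G ≤ Subgroup.centralizer ({x} : Set G) := by
        rw [← Subgroup.Normal.quotient_commutative_iff_commutator_le]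
        exact ⟨⟨fun a b => by
          obtain ⟨g, hg⟩ := IsCyclic.exists_generator (α := G ⧸ Subgroup.centralizer ({x} : Set G))
          exact mul_comm' a b⟩⟩
      apply hx
      rw [Subgroup.mem_centralizer_iff]
      intro c hc
      have := Subgroup.mem_centralizer_singleton_iff.1 (hcomm hc)
      exact this
    have h1 : p ≤ (Subgroup.centralizer ({x} : Set G)).index := by
      refine hdiv _ (Subgroup.index_dvd_card _) ?_
      intro h
      apply hxZ
      rw [Subgroup.index_eq_one] at h
      change x ∈ Subgroup.center G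
      rw [Subgroup.mem_center_iff]
      intro g
      have hg : g ∈ Subgroup.centralizer ({x} : Set G) := by rw [h]; trivial
      exact Subgroup.mem_centralizer_singleton_iff.1 hg
    have h2 := index_centralizer_le x
    omega
  -- the arithmetic input
  have hindex : Nat.card G / Nat.card Z = Z.index := by
    rw [← Subgroup.card_mul_index Z]
    exact Nat.mul_div_cancel_left _ Nat.card_pos
  have hA : ¬ (Nat.card G / Nat.card Z).Prime := by
    rw [hindex]
    intro hpr
    have hcard : Nat.card (G ⧸ Z) = Z.index := rfl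
    haveI : Fact Z.index.Prime := ⟨hpr⟩
    haveI : IsCyclic (G ⧸ Z) := isCyclic_of_prime_card hcard
    have hc := commutative_of_cyclic_center_quotient (QuotientGroup.mk' Z)
      (by rw [QuotientGroup.ker_mk'])
    apply hna
    rw [(commutator_eq_bot_iff_center_eq_top G).2 ?_]
    · exact bot_le
    · rw [eq_top_iff]
      intro x _
      rw [Subgroup.mem_center_iff]
      intro g
      exact hc g x
  have hB : Nat.card G / Nat.card Z ≠ p ^ 2 := by
    rw [hindex]
    intro h
    have hcard : Nat.card (G ⧸ Z) = p ^ 2 := h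
    have hc := IsPGroup.isMulCommutative_of_card_eq_prime_sq hcard
    apply hna
    change commutator G ≤ Z
    rw [← Subgroup.Normal.quotient_commutative_iff_commutator_le]
    exact hc
  have hcount : p * p * Nat.card Z + Nat.card L ≤ Nat.card G + Nat.card Z := by
    refine arith_partA hp Nat.card_pos (Subgroup.card_dvd_of_le hZL) (Subgroup.card_subgroup_dvd_card L)
      hnpos ?_ hdiv hA hB
    intro h
    exact hLne ((Subgroup.card_eq_iff_eq_top L).1 h)
  have hbound := sum_le_three_level Z L hZL (fun x => 1 / (((orb x).ncard : ℕ) : ℚ))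
    1 (1 / (p : ℚ)) (1 / ((p + 1 : ℕ) : ℚ))
    (by
      intro x _
      have : (1 : ℚ) ≤ ((orb x).ncard : ℕ) := by exact_mod_cast ncard_orb_pos x
      exact (div_le_one (by linarith)).2 this)
    (by
      intro x _ hxS
      have : ((p : ℕ) : ℚ) ≤ ((orb x).ncard : ℕ) := by exact_mod_cast hbig x hxS
      exact one_div_le_one_div_of_le (by exact_mod_cast hp.pos) this)
    (by
      intro x hxM
      have : (((p + 1 : ℕ)) : ℚ) ≤ ((orb x).ncard : ℕ) := by exact_mod_cast hbig2 x hxM
      exact one_div_le_one_div_of_le (by positivity) this)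
  rw [← card_orbits_eq_sum] at hbound
  have hcount' : (p : ℚ) * p * Nat.card Z + Nat.card L ≤ Nat.card G + Nat.card Z := by
    exact_mod_cast hcount
  have hpQ : (0 : ℚ) < p := by exact_mod_cast hp.pos
  have hfin : ((Nat.card (orbitRel.Quotient (MulAut G) G) * p : ℕ) : ℚ) ≤ (Nat.card G : ℚ) := by
    push_cast at hbound ⊢
    set w : ℚ := (Nat.card (orbitRel.Quotient (MulAut G) G) : ℚ)
    set s : ℚ := (Nat.card Z : ℚ)
    set m : ℚ := (Nat.card L : ℚ)
    set n : ℚ := (Nat.card G : ℚ)
    set r : ℚ := (p : ℚ)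
    have h3 : w * r ≤ (1 * s + 1 / r * (m - s) + 1 / (r + 1) * (n - m)) * r :=
      mul_le_mul_of_nonneg_right hbound hpQ.le
    have h4 : n - (1 * s + 1 / r * (m - s) + 1 / (r + 1) * (n - m)) * r =
        (n + s - (r * r * s + m)) / (r + 1) := by
      field_simp
      ring
    have h5 : 0 ≤ (n + s - (r * r * s + m)) / (r + 1) :=
      div_nonneg (by linarith) (by linarith)
    linarith
  exact_mod_cast hfin

end Cfsg.Agent.Lib.Nilpotent.AutOrbits
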