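import Mathlib
import Cfsg.Agent.Lib.PGroup.Basic
import Cfsg.Agent.Lib.Nilpotent.AutOrbits

/-!
Automorphism orbits on nonabelian `q`-groups of class two: central automorphisms and
transvections.
-/

set_option autoImplicit false

namespace Cfsg.Agent.Lib.Nilpotent.AutOrbits

open MulAction Subgroup
open scoped commutatorElement

variable {Q : Type*} [Group Q] {q : ℕ} [hq : Fact q.Prime]

/-- Powers indexed by residues. -/
def pw (q : ℕ) (u : Q) (a : ZMod q) : Q := u ^ a.val

theorem pw_zero (u : Q) : pw q u 0 = 1 := by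
  simp [pw]

theorem pw_one (u : Q) : pw q u 1 = u := by
  haveI : Fact (1 < q) := ⟨hq.out.one_lt⟩
  simp [pw, ZMod.val_one]

theorem pw_add {u : Q} (hu : u ^ q = 1) (a b : ZMod q) :
    pw q u (a + b) = pw q u a * pw q u b := by
  unfold pw
  rw [ZMod.val_add, ← pow_add]
  exact (pow_eq_pow_mod _ hu).symm

theorem pw_neg {u : Q} (hu : u ^ q = 1) (a : ZMod q) : pw q u (-a) = (pw q u a)⁻¹ := by
  rw [eq_inv_iff_mul_eq_one, ← pw_add hu, neg_add_cancel, pw_zero]

theorem pw_mul_natCast {u : Q} (hu : u ^ q = 1) (a : ZMod q) (n : ℕ) :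
    pw q u (a * (n : ZMod q)) = (pw q u a) ^ n := by
  induction n with
  | zero => simp [pw_zero]
  | succ n ih =>
    rw [Nat.cast_succ, mul_add, mul_one, pw_add hu, ih, pow_succ]

theorem pw_mem_center {u : Q} (hu : u ∈ center Q) (a : ZMod q) : pw q u a ∈ center Q :=
  Subgroup.pow_mem _ hu _

theorem pw_pow_q {u : Q} (hu : u ^ q = 1) (a : ZMod q) : (pw q u a) ^ q = 1 := by
  unfold pw
  rw [← pow_mul, mul_comm, pow_mul, hu, one_pow]

theorem pw_injective {u : Q} (hu : orderOf u = q) : Function.Injective (pw q u) := by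
  intro a b hab
  unfold pw at hab
  haveI : NeZero q := ⟨hq.out.ne_zero⟩
  have ha : a.val < orderOf u := by rw [hu]; exact ZMod.val_lt a
  have hb : b.val < orderOf u := by rw [hu]; exact ZMod.val_lt b
  exact ZMod.val_injective q (pow_injOn_Iio_orderOf (Set.mem_Iio.2 ha) (Set.mem_Iio.2 hb) hab)

theorem exists_pw_eq {u z : Q} [Finite Q] (hu : u ^ q = 1) (hz : z ∈ zpowers u) :
    ∃ a : ZMod q, pw q u a = z := by
  haveI : NeZero q := ⟨hq.out.ne_zero⟩
  rw [← mem_powers_iff_mem_zpowers] at hz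
  obtain ⟨n, rfl⟩ := hz
  refine ⟨(n : ZMod q), ?_⟩
  unfold pw
  rw [ZMod.val_natCast]
  exact (pow_eq_pow_mod _ hu).symm

/-- Central elements commute. -/
theorem central_comm {z : Q} (hz : z ∈ center Q) (a : Q) : a * z = z * a :=
  (Subgroup.mem_center_iff.1 hz) a

/-- A central automorphism built from a homomorphism to `ZMod q`. -/
theorem exists_central_aut [Finite Q] (χ : Q → ZMod q) (hχ : ∀ a b, χ (a * b) = χ a + χ b)
    {u : Q} (huc : u ∈ center Q) (huq : u ^ q = 1) (hχu : χ u = 0) :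
    ∃ α : MulAut Q, ∀ x, α x = x * pw q u (χ x) := by
  have hχ1 : χ 1 = 0 := by
    have := hχ 1 1
    rw [mul_one] at this
    simpa using this
  have hχpow : ∀ n : ℕ, χ (u ^ n) = 0 := by
    intro n
    induction n with
    | zero => simpa using hχ1
    | succ n ih => rw [pow_succ, hχ, ih, hχu, add_zero]
  let f : Q →* Q := MonoidHom.mk' (fun x => x * pw q u (χ x)) (by
    intro a b
    rw [hχ, pw_add huq]
    have := central_comm (pw_mem_center huc (χ a)) b
    calc a * b * (pw q u (χ a) * pw q u (χ b))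
        = a * (b * pw q u (χ a)) * pw q u (χ b) := by group
      _ = a * (pw q u (χ a) * b) * pw q u (χ b) := by rw [this]
      _ = a * pw q u (χ a) * (b * pw q u (χ b)) := by group)
  have hinj : Function.Injective f := by
    rw [injective_iff_map_eq_one]
    intro x hx
    have h1 : x * pw q u (χ x) = 1 := hx
    have h2 : x = (pw q u (χ x))⁻¹ := eq_inv_of_mul_eq_one_left h1
    have h3 : χ x + χ (pw q u (χ x)) = 0 := by
      rw [← hχ, h1, hχ1]
    have h4 : χ (pw q u (χ x)) = 0 := hχpow _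
    rw [h4, add_zero] at h3
    rw [h3, pw_zero, mul_one] at h1
    exact h1
  refine ⟨MulEquiv.ofBijective f (Finite.injective_iff_bijective.1 hinj), ?_⟩
  intro x
  rfl

/-- A central automorphism sending `x` to `x * v`. -/
theorem central_mem_orb [Finite Q] (χ : Q → ZMod q) (hχ : ∀ a b, χ (a * b) = χ a + χ b)
    {x v : Q} (hx : χ x = 1) (hvc : v ∈ center Q) (hvq : v ^ q = 1) (hχv : χ v = 0) :
    x * v ∈ AutOrbits.orb x := by
  obtain ⟨α, hα⟩ := exists_central_aut χ hχ hvc hvq hχv
  have := hα x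
  rw [hx, pw_one] at this
  rw [← this]
  exact apply_mem_orb α x

/-- Linear functionals separate points. -/
theorem exists_dual_one {V : Type*} [AddCommGroup V] [Module (ZMod q) V] {v : V} (hv : v ≠ 0) :
    ∃ f : V → ZMod q, (∀ x y, f (x + y) = f x + f y) ∧ f v = 1 := by
  obtain ⟨f, hf⟩ : ∃ f : V →ₗ[ZMod q] ZMod q, f v ≠ 0 := by
    by_contra h
    push Not at h
    exact hv ((Module.forall_dual_apply_eq_zero_iff (ZMod q) _).1 h)
  refine ⟨fun y => (f v)⁻¹ * f y, ?_, inv_mul_cancel₀ hf⟩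
  intro x y
  simp only [map_add, mul_add]

/-- Homomorphisms to `ZMod q` on an elementary abelian group separate points. -/
theorem exists_chi_comm {A : Type*} [CommGroup A] (hA : ∀ a : A, a ^ q = 1) {a : A} (ha : a ≠ 1) :
    ∃ χ : A → ZMod q, (∀ x y, χ (x * y) = χ x + χ y) ∧ χ a = 1 := by
  have hpow : ∀ v : Additive A, q • v = 0 := by
    intro v
    exact hA (Additive.toMul v)
  letI : Module (ZMod q) (Additive A) := AddCommGroup.zmodModule hpow
  have hne : Additive.ofMul a ≠ 0 := ha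
  obtain ⟨f, h1, h2⟩ := exists_dual_one (q := q) hne
  exact ⟨fun y => f (Additive.ofMul y), fun x y => h1 _ _, h2⟩

/-- Homomorphisms to `ZMod q` separate points modulo subgroups containing the Frattini
subgroup of a `q`-group. -/
theorem exists_chi [Finite Q] (hQ : IsPGroup q Q) (K : Subgroup Q) (hK : frattini Q ≤ K) {x : Q}
    (hx : x ∉ K) :
    ∃ χ : Q → ZMod q, (∀ a b, χ (a * b) = χ a + χ b) ∧ (∀ k ∈ K, χ k = 0) ∧ χ x = 1 := by
  classical
  have h0 := (Cfsg.Agent.Lib.PGroup.Basic.frattini_le_iff hQ).1 hK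
  haveI hN : K.Normal := by
    refine ⟨fun n hn g => ?_⟩
    have := K.mul_mem (h0.2 g n) hn
    have e : g * n * g⁻¹ * n⁻¹ * n = g * n * g⁻¹ := by group
    rwa [commutatorElement_def, e] at this
  have hcomm : ∀ a b : Q ⧸ K, a * b = b * a := by
    intro a b
    obtain ⟨a, rfl⟩ := QuotientGroup.mk_surjective a
    obtain ⟨b, rfl⟩ := QuotientGroup.mk_surjective b
    rw [← QuotientGroup.mk_mul, ← QuotientGroup.mk_mul, QuotientGroup.eq]
    have := h0.2 b⁻¹ a⁻¹
    rw [commutatorElement_def] at this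
    have e : (a * b)⁻¹ * (b * a) = b⁻¹ * a⁻¹ * b⁻¹⁻¹ * a⁻¹⁻¹ := by group
    rwa [e]
  letI : CommGroup (Q ⧸ K) := { (inferInstance : Group (Q ⧸ K)) with mul_comm := hcomm }
  have hpow : ∀ v : Q ⧸ K, v ^ q = 1 := by
    intro v
    obtain ⟨a, rfl⟩ := QuotientGroup.mk_surjective v
    rw [← QuotientGroup.mk_pow]
    exact (QuotientGroup.eq_one_iff _).2 (h0.1 a)
  have hne : (x : Q ⧸ K) ≠ 1 := fun h => hx ((QuotientGroup.eq_one_iff _).1 h)
  obtain ⟨χ, h1, h2⟩ := exists_chi_comm hpow hne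
  refine ⟨fun y => χ (y : Q ⧸ K), ?_, ?_, h2⟩
  · intro a b
    exact h1 (a : Q ⧸ K) (b : Q ⧸ K)
  · intro k hk
    have hk1 : (k : Q ⧸ K) = 1 := (QuotientGroup.eq_one_iff _).2 hk
    have hχ1 : χ 1 = 0 := by
      have := h1 1 1
      rw [mul_one] at this
      simpa using this
    change χ (k : Q ⧸ K) = 0
    rw [hk1, hχ1]

/-! ## Class two identities -/

section ClassTwo

variable (hcen : ∀ x y : Q, ⁅x, y⁆ ∈ center Q)
include hcen

theorem comm_mul_left (x y z : Q) : ⁅x * y, z⁆ = ⁅x, z⁆ * ⁅y, z⁆ := by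
  have h1 : ⁅x * y, z⁆ = x * ⁅y, z⁆ * z * x⁻¹ * z⁻¹ := by
    simp only [commutatorElement_def]; group
  rw [h1, central_comm (hcen y z) x, central_comm (hcen y z) ⁅x, z⁆]
  simp only [commutatorElement_def]; group

theorem comm_mul_right (x y z : Q) : ⁅x, y * z⁆ = ⁅x, y⁆ * ⁅x, z⁆ := by
  have h1 : ⁅x, y * z⁆ = ⁅y * z, x⁆⁻¹ := (commutatorElement_inv _ _).symm
  rw [h1, comm_mul_left hcen, mul_inv_rev, commutatorElement_inv, commutatorElement_inv]
  exact (central_comm (hcen x z) _).symm ▸ rfl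

theorem comm_pow_left (x y : Q) (n : ℕ) : ⁅x ^ n, y⁆ = ⁅x, y⁆ ^ n :=
  Cfsg.Agent.Lib.PGroup.Basic.commutator_pow_left (central_comm (hcen x y) x) n

theorem comm_pow_right (x y : Q) (n : ℕ) : ⁅x, y ^ n⁆ = ⁅x, y⁆ ^ n :=
  Cfsg.Agent.Lib.PGroup.Basic.commutator_pow_right (central_comm (hcen x y) y) n

theorem comm_left_central {z : Q} (hz : z ∈ center Q) (y : Q) : ⁅z, y⁆ = 1 := by
  rw [commutatorElement_eq_one_iff_mul_comm]
  exact (central_comm hz y).symm

theorem mul_comm_mem_orb [Finite Q] (x y : Q) : x * ⁅x, y⁆ ∈ AutOrbits.orb x := by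
  have hc := central_comm (hcen x y) y⁻¹
  have : x * ⁅x, y⁆ = y⁻¹ * x * y⁻¹⁻¹ := by
    calc x * ⁅x, y⁆ = ⁅x, y⁆ * x := central_comm (hcen x y) x
      _ = ⁅x, y⁆ * y⁻¹ * (y * x) := by group
      _ = y⁻¹ * ⁅x, y⁆ * (y * x) := by rw [hc]
      _ = y⁻¹ * (⁅x, y⁆ * y * x) := by group
      _ = y⁻¹ * (x * y) := by rw [commutatorElement_def]; group
      _ = y⁻¹ * x * y⁻¹⁻¹ := by group
  rw [this]
  exact conj_mem_orb _ _

theorem mul_comm_pow_mem_orb [Finite Q] (x y : Q) (i : ℕ) : x * ⁅x, y⁆ ^ i ∈ AutOrbits.orb x := by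
  rw [← comm_pow_right hcen]
  exact mul_comm_mem_orb hcen x _

theorem mul_pow_class_two (x y : Q) (n : ℕ) :
    (x * y) ^ n = x ^ n * y ^ n * ⁅y, x⁆ ^ n.choose 2 :=
  Cfsg.Agent.Lib.PGroup.Basic.mul_pow_of_commutator_central (central_comm (hcen y x) x)
    (central_comm (hcen y x) y) n

end ClassTwo

/-! ## Counting inside `q`-groups -/

section Count

variable [Finite Q] (hQ : IsPGroup q Q)
include hQ

theorem le_of_dvd_card_ne_one {m : ℕ} (h : m ∣ Nat.card Q) (hm : m ≠ 1) : q ≤ m := by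
  obtain ⟨n, hn⟩ := IsPGroup.iff_card.1 hQ
  rw [hn] at h
  obtain ⟨k, _, rfl⟩ := (Nat.dvd_prime_pow hq.out).1 h
  rcases Nat.eq_zero_or_pos k with rfl | hk
  · simp at hm
  · exact Nat.le_self_pow hk.ne' q

theorem card_step {H K : Subgroup Q} (hHK : H ≤ K) (hne : H ≠ K) :
    q * Nat.card H ≤ Nat.card K := by
  obtain ⟨m, hm⟩ := Subgroup.card_dvd_of_le hHK
  have hm1 : m ≠ 1 := by
    rintro rfl
    rw [mul_one] at hm
    exact hne (Subgroup.eq_of_le_of_card_ge hHK hm.le)
  have hmd : m ∣ Nat.card Q :=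
    Dvd.dvd.trans (Dvd.intro_left _ hm.symm) (Subgroup.card_subgroup_dvd_card K)
  have := le_of_dvd_card_ne_one hQ hmd hm1
  rw [hm, mul_comm]
  exact Nat.mul_le_mul_left _ this

theorem count_chain {S Z M : Subgroup Q} (hSZ : S ≤ Z) (hZM : Z ≤ M) (hZne : Z ≠ M)
    (hMne : M ≠ ⊤) : q * Nat.card S + Nat.card M ≤ Nat.card Q := by
  have h1 := card_step hQ hZM hZne
  have h2 := card_step hQ (le_top : M ≤ ⊤) hMne
  rw [Subgroup.card_top] at h2
  have h3 : Nat.card S ≤ Nat.card Z := Subgroup.card_le_of_le hSZ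
  have hq2 := hq.out.two_le
  have h4 : q * Nat.card S ≤ q * Nat.card Z := Nat.mul_le_mul_left _ h3
  have h5 : 2 * Nat.card M ≤ q * Nat.card M := Nat.mul_le_mul_right _ hq2
  omega

theorem sq_mul_card_center_le (hna : ¬ ∀ x y : Q, x * y = y * x) :
    q * q * Nat.card (center Q) ≤ Nat.card Q := by
  rw [← Subgroup.card_mul_index (center Q), mul_comm]
  refine Nat.mul_le_mul_left _ ?_
  obtain ⟨n, hn⟩ := IsPGroup.iff_card.1 hQ
  have hd : (center Q).index ∣ q ^ n := hn ▸ Subgroup.index_dvd_card _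
  obtain ⟨k, _, hk⟩ := (Nat.dvd_prime_pow hq.out).1 hd
  rw [hk]
  have hk2 : 2 ≤ k := by
    by_contra hlt
    have hcyc : IsCyclic (Q ⧸ center Q) := by
      have hcard : Nat.card (Q ⧸ center Q) = q ^ k := hk
      interval_cases k
      · rw [pow_zero] at hcard
        haveI : Subsingleton (Q ⧸ center Q) := (Nat.card_eq_one_iff_unique.1 hcard).1
        infer_instance
      · rw [pow_one] at hcard
        exact isCyclic_of_prime_card hcard
    apply hna
    exact commutative_of_cyclic_center_quotient (QuotientGroup.mk' (center Q))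
      (by rw [QuotientGroup.ker_mk'])
  calc q * q = q ^ 2 := (sq q).symm
    _ ≤ q ^ k := Nat.pow_le_pow_right hq.out.pos hk2

/-- Base estimate: everything off `Z ∩ Φ` has orbit of size at least `q`. -/
theorem base_big {t : Q} (htc : t ∈ center Q)
    (htΦ : t ∈ frattini Q) (hto : orderOf t = q) (x : Q)
    (hx : x ∉ center Q ⊓ frattini Q) : q ≤ (AutOrbits.orb x).ncard := by
  have htq : t ^ q = 1 := hto ▸ pow_orderOf_eq_one t
  by_cases hxZ : x ∈ center Q
  · have hxΦ : x ∉ frattini Q := fun h => hx (Subgroup.mem_inf.2 ⟨hxZ, h⟩)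
    obtain ⟨χ, h1, h2, h3⟩ := exists_chi hQ (frattini Q) le_rfl hxΦ
    rw [← hto]
    refine orderOf_le_ncard_orb (fun i => ?_)
    refine central_mem_orb χ h1 h3 (Subgroup.pow_mem _ htc _) ?_
      (h2 _ (Subgroup.pow_mem _ htΦ _))
    rw [← pow_mul, mul_comm, pow_mul, htq, one_pow]
  · refine le_trans (le_of_dvd_card_ne_one hQ (Subgroup.index_dvd_card _) ?_)
      (index_centralizer_le x)
    intro h
    apply hxZ
    rw [Subgroup.index_eq_one] at h
    rw [Subgroup.mem_center_iff]
    intro g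
    have hg : g ∈ Subgroup.centralizer ({x} : Set Q) := by rw [h]; trivial
    exact Subgroup.mem_centralizer_singleton_iff.1 hg

end Count

/-- The set of elements whose `q`-th power is central. -/
def powCentral (hcen : ∀ x y : Q, ⁅x, y⁆ ∈ center Q) (q : ℕ) : Subgroup Q where
  carrier := {x | x ^ q ∈ center Q}
  one_mem' := by
    simp only [Set.mem_setOf_eq, one_pow]; exact Subgroup.one_mem _
  mul_mem' := by
    intro a b ha hb
    simp only [Set.mem_setOf_eq] at ha hb ⊢
    rw [mul_pow_class_two hcen]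
    exact Subgroup.mul_mem _ (Subgroup.mul_mem _ ha hb) (Subgroup.pow_mem _ (hcen b a) _)
  inv_mem' := by
    intro a ha
    simp only [Set.mem_setOf_eq] at ha ⊢
    rw [inv_pow]
    exact Subgroup.inv_mem _ ha

theorem mem_powCentral (hcen : ∀ x y : Q, ⁅x, y⁆ ∈ center Q) {x : Q} : x ∈ powCentral hcen q ↔ x ^ q ∈ center Q := Iff.rfl

/-- Powers of an element of order `q` outside `⟨t⟩`. -/
theorem pow_notMem_zpowers {u t : Q} (huq : u ^ q = 1) (hut : u ∉ zpowers t) (j : ℕ)
    (hj0 : 0 < j) (hjq : j < q) : u ^ j ∉ zpowers t := by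
  intro h
  apply hut
  have hcop : Nat.Coprime j q :=
    (Nat.Coprime.symm ((Nat.Prime.coprime_iff_not_dvd hq.out).2
      (fun hd => absurd (Nat.le_of_dvd hj0 hd) (by omega))))
  have hbez : ((Nat.gcd j q : ℕ) : ℤ) = j * Nat.gcdA j q + q * Nat.gcdB j q :=
    Nat.gcd_eq_gcd_ab j q
  rw [hcop] at hbez
  have e : u = (u ^ j) ^ (Nat.gcdA j q) := by
    calc u = u ^ ((1 : ℕ) : ℤ) := by simp
      _ = u ^ ((j : ℤ) * Nat.gcdA j q + q * Nat.gcdB j q) := by rw [hbez]
      _ = (u ^ j) ^ (Nat.gcdA j q) * (u ^ q) ^ (Nat.gcdB j q) := by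
          rw [zpow_add, zpow_mul, zpow_mul, zpow_natCast, zpow_natCast]
      _ = (u ^ j) ^ (Nat.gcdA j q) := by rw [huq, one_zpow, mul_one]
  rw [e]
  exact Subgroup.zpow_mem _ h _

/-! ## The three cases -/

section Cases

variable [Finite Q] (hQ : IsPGroup q Q) (hcen : ∀ x y : Q, ⁅x, y⁆ ∈ center Q)
  (hna : ¬ ∀ x y : Q, x * y = y * x)
include hQ hcen hna

/-- First case: some `q`-th power is not central. -/
theorem case_one (S : Subgroup Q) (hS : S ≤ center Q) {x₀ : Q} (hx₀ : x₀ ^ q ∉ center Q)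
    (hbase : ∀ x, x ∉ S → q ≤ (AutOrbits.orb x).ncard) :
    Nat.card (orbitRel.Quotient (MulAut Q) Q) * q ≤ Nat.card Q := by
  have hW1 : center Q ≤ powCentral hcen q := by
    intro z hz
    exact Subgroup.pow_mem _ hz _
  have hW2 : powCentral hcen q ≠ ⊤ := by
    intro h
    exact hx₀ ((mem_powCentral hcen).1 (h ▸ Subgroup.mem_top x₀))
  have hW3 : center Q ≠ powCentral hcen q := by
    intro h
    -- Cauchy in the quotient
    have hne : center Q ≠ ⊤ := by
      intro h'
      apply hW2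
      rw [← h, h']
    have hidx : (center Q).index ≠ 1 := by
      rw [Ne, Subgroup.index_eq_one]; exact hne
    have hdvd : q ∣ Nat.card (Q ⧸ center Q) := by
      obtain ⟨n, hn⟩ := IsPGroup.iff_card.1 hQ
      have hd : (center Q).index ∣ q ^ n := hn ▸ Subgroup.index_dvd_card _
      obtain ⟨k, _, hk⟩ := (Nat.dvd_prime_pow hq.out).1 hd
      have hcard : Nat.card (Q ⧸ center Q) = q ^ k := hk
      rw [hcard]
      rcases Nat.eq_zero_or_pos k with rfl | hkpos
      · exact absurd (by rw [hk, pow_zero]) hidx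
      · exact dvd_pow_self _ hkpos.ne'
    obtain ⟨y, hy⟩ := exists_prime_orderOf_dvd_card' q hdvd
    obtain ⟨y, rfl⟩ := QuotientGroup.mk_surjective y
    have hy1 : ((y : Q ⧸ center Q)) ^ q = 1 := by rw [← hy]; exact pow_orderOf_eq_one _
    have hy2 : y ^ q ∈ center Q := by
      rw [← QuotientGroup.mk_pow] at hy1
      exact (QuotientGroup.eq_one_iff _).1 hy1
    have hy3 : y ∈ center Q := h ▸ (mem_powCentral hcen).2 hy2
    have hy4 : (y : Q ⧸ center Q) = 1 := (QuotientGroup.eq_one_iff _).2 hy3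
    rw [hy4, orderOf_one] at hy
    exact hq.out.one_lt.ne hy
  refine master hq.out.pos S (powCentral hcen q) (hS.trans hW1) hbase ?_
    (count_chain hQ hS hW1 hW3 hW2)
  intro x hx
  have hx' : x ^ q ∉ center Q := hx
  obtain ⟨y, hy⟩ : ∃ y : Q, ⁅x ^ q, y⁆ ≠ 1 := by
    by_contra hall
    push Not at hall
    apply hx'
    rw [Subgroup.mem_center_iff]
    intro g
    exact ((commutatorElement_eq_one_iff_mul_comm).1 (hall g)).symm
  rw [comm_pow_left hcen] at hy
  obtain ⟨k, hk⟩ := hQ ⁅x, y⁆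
  have hord : orderOf ⁅x, y⁆ ∣ q ^ k := orderOf_dvd_of_pow_eq_one hk
  obtain ⟨j, _, hj⟩ := (Nat.dvd_prime_pow hq.out).1 hord
  have hj2 : 2 ≤ j := by
    by_contra hlt
    apply hy
    have hdq : orderOf ⁅x, y⁆ ∣ q := by
      rw [hj]
      interval_cases j
      · simp
      · simp
    exact orderOf_dvd_iff_pow_eq_one.1 hdq
  calc q * q = q ^ 2 := (sq q).symm
    _ ≤ q ^ j := Nat.pow_le_pow_right hq.out.pos hj2
    _ = orderOf ⁅x, y⁆ := hj.symm
    _ ≤ _ := orderOf_le_ncard_orb (fun i => mul_comm_pow_mem_orb hcen x y i)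

/-- Second case: the central elements of order `q` do not all lie in `⟨t⟩`. -/
theorem case_two {t u : Q} (htc : t ∈ center Q) (hto : orderOf t = q)
    (huc : u ∈ center Q) (huq : u ^ q = 1) (hut : u ∉ zpowers t)
    (hbase : ∀ x, x ∉ center Q ⊓ frattini Q → q ≤ (AutOrbits.orb x).ncard) :
    Nat.card (orbitRel.Quotient (MulAut Q) Q) * q ≤ Nat.card Q := by
  have htq : t ^ q = 1 := hto ▸ pow_orderOf_eq_one t
  let M : Subgroup Q := center Q ⊔ frattini Q
  have hM1 : center Q ≤ M := le_sup_left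
  have hM2 : frattini Q ≤ M := le_sup_right
  have hSM : center Q ⊓ frattini Q ≤ M := inf_le_left.trans hM1
  have hMne : M ≠ ⊤ := by
    intro h
    have hZ : center Q = ⊤ := frattini_nongenerating h
    apply hna
    intro a b
    have hb : b ∈ center Q := by rw [hZ]; trivial
    exact ((Subgroup.mem_center_iff.1 hb) a)
  have hcount : q * Nat.card (center Q ⊓ frattini Q : Subgroup Q) + Nat.card M ≤ Nat.card Q := by
    by_cases hcase : center Q ⊓ frattini Q = M
    · rw [hcase]
      have hMZ : M = center Q := le_antisymm (hcase ▸ inf_le_left) hM1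
      have h1 := sq_mul_card_center_le hQ hna
      rw [← hMZ] at h1
      have hq2 := hq.out.two_le
      have h2 : (q + 1) * Nat.card M ≤ q * q * Nat.card M :=
        Nat.mul_le_mul_right _ (by nlinarith)
      calc q * Nat.card M + Nat.card M = (q + 1) * Nat.card M := by ring
        _ ≤ _ := h2.trans h1
    · exact count_chain hQ le_rfl hSM hcase hMne
  refine master hq.out.pos (center Q ⊓ frattini Q) M hSM hbase ?_ hcount
  intro x hx
  obtain ⟨χ, h1, h2, h3⟩ := exists_chi hQ M hM2 hx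
  refine mul_self_le_ncard_orb (h := u) hto
    (fun j hj0 hjq => pow_notMem_zpowers huq hut j hj0 hjq) ?_
  intro k l
  rw [mul_assoc]
  have hvc : u ^ k * t ^ l ∈ center Q :=
    Subgroup.mul_mem _ (Subgroup.pow_mem _ huc _) (Subgroup.pow_mem _ htc _)
  refine central_mem_orb χ h1 h3 hvc ?_ (h2 _ (hM1 hvc))
  have hcomm : Commute (u ^ k) (t ^ l) :=
    ((central_comm (Subgroup.pow_mem _ htc l) (u ^ k)))
  rw [hcomm.mul_pow, ← pow_mul, mul_comm k, pow_mul, huq, one_pow, ← pow_mul, mul_comm l,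
    pow_mul, htq, one_pow, mul_one]

end Cases

/-! ## Transvections -/

section Transvection

variable [Finite Q] (hcen : ∀ x y : Q, ⁅x, y⁆ ∈ center Q)
include hcen

/-- A transvection-type automorphism makes the orbit of every element outside `C(w)` big. -/
theorem transvection_big {t w : Q} (s : ZMod q → ZMod q) (htc : t ∈ center Q)
    (hto : orderOf t = q) (hcomm : ∀ x y : Q, ⁅x, y⁆ ∈ zpowers t)
    (H1 : ∀ a b : ZMod q, pw q w (a + b) * pw q t (s (a + b)) =
      pw q w a * pw q t (s a) * (pw q w b * pw q t (s b)) * pw q t (-(a * b)))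
    {x : Q} (hx : ⁅x, w⁆ ≠ 1) : q * q ≤ (AutOrbits.orb x).ncard := by
  have htq : t ^ q = 1 := hto ▸ pow_orderOf_eq_one t
  have hpwc : ∀ a : ZMod q, pw q t a ∈ center Q := pw_mem_center htc
  choose lam hlam using fun y : Q => exists_pw_eq htq (hcomm y w)
  have hinjt := pw_injective hto
  have lam_add : ∀ a b, lam (a * b) = lam a + lam b := by
    intro a b
    apply hinjt
    rw [pw_add htq, hlam, hlam, hlam, comm_mul_left hcen]
  have lam_one : lam 1 = 0 := by
    have := lam_add 1 1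
    rw [mul_one] at this
    simpa using this
  let h : ZMod q → Q := fun a => pw q w a * pw q t (s a)
  have H2 : ∀ (a : ZMod q) (y : Q), ⁅h a, y⁆ = pw q t (-(a * lam y)) := by
    intro a y
    change ⁅pw q w a * pw q t (s a), y⁆ = _
    rw [comm_mul_left hcen, comm_left_central hcen (hpwc _) y, mul_one]
    have e1 : ⁅pw q w a, y⁆ = ⁅w, y⁆ ^ a.val := comm_pow_left hcen w y a.val
    rw [e1, ← commutatorElement_inv y w, ← hlam y, ← pw_neg htq, ← pw_mul_natCast htq,
      ZMod.natCast_zmod_val]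
    congr 1
    ring
  have H3 : ∀ a : ZMod q, lam (h a) = 0 := by
    intro a
    apply hinjt
    rw [hlam, pw_zero]
    change ⁅pw q w a * pw q t (s a), w⁆ = 1
    rw [comm_mul_left hcen, comm_left_central hcen (hpwc _) w, mul_one]
    change ⁅w ^ a.val, w⁆ = 1
    rw [comm_pow_left hcen, commutatorElement_self, one_pow]
  have H1' : ∀ a b : ZMod q, h (a + b) = h a * h b * pw q t (-(a * b)) := H1
  have hzero : h 0 = 1 := by
    have := H1' 0 0
    rw [add_zero, zero_mul, neg_zero, pw_zero, mul_one] at this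
    exact (mul_eq_left.1 this.symm)
  -- the automorphism
  let f : Q →* Q := MonoidHom.mk' (fun y => y * h (lam y)) (by
    intro y z
    rw [lam_add, H1']
    have e := H2 (lam y) z
    have e2 : h (lam y) * z = ⁅h (lam y), z⁆ * z * h (lam y) := by
      rw [commutatorElement_def]; group
    have hc := central_comm (hpwc (-(lam y * lam z)))
    calc y * z * (h (lam y) * h (lam z) * pw q t (-(lam y * lam z)))
        = y * z * (h (lam y) * h (lam z)) * pw q t (-(lam y * lam z)) := by group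
      _ = pw q t (-(lam y * lam z)) * (y * z * (h (lam y) * h (lam z))) := hc _
      _ = (pw q t (-(lam y * lam z)) * y) * (z * h (lam y)) * h (lam z) := by group
      _ = (y * pw q t (-(lam y * lam z))) * (z * h (lam y)) * h (lam z) := by
          rw [(hc y)]
      _ = y * (pw q t (-(lam y * lam z)) * (z * h (lam y))) * h (lam z) := by group
      _ = y * (h (lam y) * z) * h (lam z) := by
          rw [e2, e]; group
      _ = y * h (lam y) * (z * h (lam z)) := by group)
  have hinj : Function.Injective f := by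
    rw [injective_iff_map_eq_one]
    intro y hy
    have h1 : y * h (lam y) = 1 := hy
    have h2 : lam y + lam (h (lam y)) = 0 := by rw [← lam_add, h1, lam_one]
    rw [H3, add_zero] at h2
    rw [h2, hzero, mul_one] at h1
    exact h1
  let α : MulAut Q := MulEquiv.ofBijective f (Finite.injective_iff_bijective.1 hinj)
  have hα : ∀ y, α y = y * h (lam y) := fun y => rfl
  -- powers
  set a := lam x with ha
  have ha0 : a ≠ 0 := by
    intro h0
    apply hx
    rw [← hlam x, ← ha, h0, pw_zero]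
  have hpow : ∀ k : ℕ, lam (x * h a ^ k) = a ∧ x * h a ^ k ∈ AutOrbits.orb x := by
    intro k
    induction k with
    | zero => simp only [pow_zero, mul_one]; exact ⟨rfl, mem_orb_self x⟩
    | succ k ih =>
      obtain ⟨ih1, ih2⟩ := ih
      have e : x * h a ^ (k + 1) = α (x * h a ^ k) := by
        rw [hα, ih1, pow_succ, mul_assoc]
      constructor
      · rw [pow_succ, ← mul_assoc, lam_add, ih1, H3, add_zero]
      · rw [e]
        exact mem_orb_trans ih2 (apply_mem_orb α _)
  -- the element `c`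
  have hcdef : ⁅x, w⁆ = pw q t a := (hlam x).symm
  have hcq : ⁅x, w⁆ ^ q = 1 := by rw [hcdef]; exact pw_pow_q htq a
  have hco : orderOf ⁅x, w⁆ = q := orderOf_eq_prime hcq hx
  have hcc : zpowers ⁅x, w⁆ ≤ center Q := zpowers_le.2 (hcen x w)
  refine mul_self_le_ncard_orb (h := h a) hco ?_ ?_
  · intro j hj0 hjq hmem
    have hc1 : h a ^ j ∈ center Q := hcc hmem
    have h1 : ⁅h a ^ j, x⁆ = 1 := comm_left_central hcen hc1 x
    rw [comm_pow_left hcen, H2] at h1
    have he0 : -(a * lam x) ≠ 0 := by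
      rw [← ha]
      exact neg_ne_zero.2 (mul_ne_zero ha0 ha0)
    have he1 : pw q t (-(a * lam x)) ≠ 1 := by
      intro h2
      apply he0
      apply hinjt
      rw [h2, pw_zero]
    have heo : orderOf (pw q t (-(a * lam x))) = q := orderOf_eq_prime (pw_pow_q htq _) he1
    have := orderOf_dvd_of_pow_eq_one h1
    rw [heo] at this
    exact absurd (Nat.le_of_dvd hj0 this) (by omega)
  · intro k l
    obtain ⟨h1, h2⟩ := hpow k
    have h3 : ⁅x * h a ^ k, w⁆ = ⁅x, w⁆ := by
      rw [← hlam, h1, hcdef]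
    have h4 := mul_comm_pow_mem_orb hcen (x * h a ^ k) w l
    rw [h3] at h4
    exact mem_orb_trans h2 h4

omit [Finite Q] in
/-- The section for odd `q`. -/
theorem section_odd (hq2 : q ≠ 2) {t w : Q} (htc : t ∈ center Q) (htq : t ^ q = 1)
    (hwq : w ^ q = 1) (a b : ZMod q) :
    pw q w (a + b) * pw q t (-(((a + b) * (a + b)) / 2)) =
      pw q w a * pw q t (-((a * a) / 2)) * (pw q w b * pw q t (-((b * b) / 2))) *
        pw q t (-(a * b)) := by
  have h2 : (2 : ZMod q) ≠ 0 := by
    intro h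
    have h3 : ((2 : ℕ) : ZMod q) = 0 := by exact_mod_cast h
    rw [ZMod.natCast_eq_zero_iff] at h3
    exact hq2 ((Nat.prime_dvd_prime_iff_eq hq.out Nat.prime_two).1 h3)
  have e : -(((a + b) * (a + b)) / 2) = -((a * a) / 2) + -((b * b) / 2) + -(a * b) := by
    field_simp
    ring
  rw [e, pw_add htq, pw_add htq, pw_add hwq]
  have hc := central_comm (pw_mem_center htc (-((a * a) / 2)))
  calc pw q w a * pw q w b * (pw q t (-((a * a) / 2)) * pw q t (-((b * b) / 2)) * pw q t (-(a * b)))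
      = pw q w a * (pw q w b * pw q t (-((a * a) / 2))) * pw q t (-((b * b) / 2)) *
          pw q t (-(a * b)) := by group
    _ = pw q w a * (pw q t (-((a * a) / 2)) * pw q w b) * pw q t (-((b * b) / 2)) *
          pw q t (-(a * b)) := by rw [hc]
    _ = _ := by group

end Transvection

/-! ## Elements for the section -/

/-- For odd `q` there is a noncentral element of order `q`. -/
theorem exists_w_odd [Finite Q] (hQ : IsPGroup q Q) (hcen : ∀ x y : Q, ⁅x, y⁆ ∈ center Q)
    (hna : ¬ ∀ x y : Q, x * y = y * x) (hq2 : q ≠ 2) {t : Q} (hto : orderOf t = q)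
    (hcomm : ∀ x y : Q, ⁅x, y⁆ ∈ zpowers t) (hZ : ∀ x : Q, x ^ q ∈ center Q)
    (hΩ : ∀ u ∈ center Q, u ^ q = 1 → u ∈ zpowers t) :
    ∃ w : Q, w ∉ center Q ∧ w ^ q = 1 := by
  have htq : t ^ q = 1 := hto ▸ pow_orderOf_eq_one t
  have hcq : ∀ x y : Q, ⁅x, y⁆ ^ q = 1 := by
    intro x y
    obtain ⟨a, ha⟩ := exists_pw_eq htq (hcomm x y)
    rw [← ha]
    exact pw_pow_q htq a
  obtain ⟨m, hm⟩ : ∃ m, q = 2 * m + 1 := by
    rcases hq.out.eq_two_or_odd' with h | h
    · exact absurd h hq2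
    · exact h
  have hchoose : q.choose 2 = q * m := by
    rw [Nat.choose_two_right]
    have : q - 1 = 2 * m := by omega
    rw [this]
    apply Nat.div_eq_of_eq_mul_left (by norm_num)
    ring
  let π : Q →* Q := MonoidHom.mk' (fun x => x ^ q) (by
    intro a b
    rw [mul_pow_class_two hcen, hchoose, pow_mul, hcq, one_pow, mul_one])
  by_contra hall
  push Not at hall
  have hker : π.ker ≤ zpowers t := by
    intro w hw
    have hw' : w ^ q = 1 := hw
    by_cases hwc : w ∈ center Q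
    · exact hΩ w hwc hw'
    · exact absurd hw' (hall w hwc)
  have hrange : π.range ≤ center Q := by
    rintro _ ⟨x, rfl⟩
    exact hZ x
  have h1 : Nat.card π.ker ≤ q := by
    have := Subgroup.card_le_of_le hker
    rwa [Nat.card_zpowers, hto] at this
  have h2 : Nat.card π.range ≤ Nat.card (center Q) := Subgroup.card_le_of_le hrange
  have h3 : Nat.card π.ker * Nat.card π.range = Nat.card Q := by
    rw [← Subgroup.index_ker]
    exact Subgroup.card_mul_index _
  have h4 := sq_mul_card_center_le hQ hna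
  have h5 : Nat.card Q ≤ q * Nat.card (center Q) := by
    rw [← h3]; exact Nat.mul_le_mul h1 h2
  have h6 : 0 < Nat.card (center Q) := Nat.card_pos
  have h7 := hq.out.two_le
  nlinarith

/-- For `q = 2` there is a noncentral element squaring to `t`. -/
theorem exists_w_two [Finite Q] (hcen : ∀ x y : Q, ⁅x, y⁆ ∈ center Q)
    (hna : ¬ ∀ x y : Q, x * y = y * x) {t : Q} (htc : t ∈ center Q) (hto : orderOf t = 2)
    (hcomm : ∀ x y : Q, ⁅x, y⁆ ∈ zpowers t) (hZ : ∀ x : Q, x ^ 2 ∈ center Q)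
    (hΩ : ∀ u ∈ center Q, u ^ 2 = 1 → u ∈ zpowers t) :
    ∃ w : Q, w ∉ center Q ∧ w ^ 2 = t := by
  classical
  have htq : t ^ 2 = 1 := hto ▸ pow_orderOf_eq_one t
  have hcomC : ∀ a b : center Q, Commute a b := fun a b =>
    Subtype.ext (central_comm a.2 (b : Q)).symm
  let φ : center Q →* center Q := MonoidHom.mk' (fun z => z ^ 2)
    (fun a b => (hcomC a b).mul_pow 2)
  let t' : center Q := ⟨t, htc⟩
  have hker : φ.ker = zpowers t' := by
    ext z
    rw [MonoidHom.mem_ker]
    constructor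
    · intro hz
      have h1 : (z : Q) ^ 2 = 1 := by
        have := congrArg Subtype.val hz
        simpa [φ] using this
      have h2 := hΩ z z.2 h1
      obtain ⟨k, hk⟩ := Subgroup.mem_zpowers_iff.1 h2
      exact Subgroup.mem_zpowers_iff.2 ⟨k, Subtype.ext (by push_cast; exact hk)⟩
    · intro hz
      obtain ⟨k, rfl⟩ := Subgroup.mem_zpowers_iff.1 hz
      apply Subtype.ext
      change ((((t' ^ k : center Q)) : Q)) ^ 2 = 1
      push_cast
      change (t ^ k) ^ 2 = 1
      rw [← zpow_natCast, ← zpow_mul, mul_comm, zpow_mul, zpow_natCast, htq, one_zpow]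
  have hkc : Nat.card φ.ker = 2 := by
    rw [hker, Nat.card_zpowers, Subgroup.orderOf_mk, hto]
  have hidx : φ.range.index = 2 := by
    have h1 := Subgroup.card_mul_index φ.ker
    have h2 := Subgroup.card_mul_index φ.range
    rw [Subgroup.index_ker, hkc] at h1
    have hpos : 0 < Nat.card φ.range := Nat.card_pos
    have h3 : Nat.card φ.range * φ.range.index = Nat.card φ.range * 2 := by
      rw [h2, ← h1, mul_comm]
    exact Nat.eq_of_mul_eq_mul_left hpos h3
  have key : ∀ v : Q, v ∉ center Q → (⟨v ^ 2, hZ v⟩ * t' : center Q) ∈ φ.range →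
      ∃ w : Q, w ∉ center Q ∧ w ^ 2 = t := by
    intro v hv hmem
    obtain ⟨z, hz⟩ := hmem
    have hz' : (z : Q) ^ 2 = v ^ 2 * t := by
      have := congrArg Subtype.val hz
      simpa [φ, t'] using this
    refine ⟨v * (z : Q)⁻¹, ?_, ?_⟩
    · intro h
      apply hv
      have := Subgroup.mul_mem _ h z.2
      rwa [inv_mul_cancel_right] at this
    · have hc : Commute v (z : Q)⁻¹ :=
        (central_comm (Subgroup.inv_mem _ z.2) v)
      rw [hc.mul_pow, inv_pow, hz', mul_inv_rev,
        ← central_comm (Subgroup.inv_mem _ htc) (v ^ 2)⁻¹, mul_inv_cancel_left]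
      exact (inv_eq_of_mul_eq_one_left (by rw [← sq, htq]))
  obtain ⟨x, y, hxy⟩ : ∃ x y : Q, ⁅x, y⁆ ≠ 1 := by
    by_contra hall
    push Not at hall
    exact hna (fun a b => (commutatorElement_eq_one_iff_mul_comm).1 (hall a b))
  have hct : ⁅x, y⁆ = t := by
    obtain ⟨a, ha⟩ := exists_pw_eq htq (hcomm x y)
    have hcases : ∀ a : ZMod 2, a = 0 ∨ a = 1 := by decide
    rcases hcases a with rfl | rfl
    · rw [pw_zero] at ha
      exact absurd ha.symm hxy
    · rw [pw_one] at ha
      exact ha.symm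
  have hx : x ∉ center Q := by
    intro h
    exact hxy (comm_left_central hcen h y)
  have hy : y ∉ center Q := by
    intro h
    apply hxy
    rw [commutatorElement_eq_one_iff_mul_comm]
    exact (central_comm h x)
  have hxyc : x * y ∉ center Q := by
    intro h
    have h1 := comm_left_central hcen h y
    rw [comm_mul_left hcen, commutatorElement_self, mul_one] at h1
    exact hxy h1
  have hsq : (x * y) ^ 2 * t = x ^ 2 * y ^ 2 := by
    have h1 := mul_pow_class_two hcen x y 2
    have h2 : (2 : ℕ).choose 2 = 1 := by decide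
    rw [h2, pow_one, ← commutatorElement_inv x y, hct] at h1
    rw [h1, inv_mul_cancel_right]
  have ht2 := @Subgroup.mul_mem_iff_of_index_two _ _ φ.range hidx
  by_cases hA : (⟨x ^ 2, hZ x⟩ * t' : center Q) ∈ φ.range
  · exact key x hx hA
  by_cases hB : (⟨y ^ 2, hZ y⟩ * t' : center Q) ∈ φ.range
  · exact key y hy hB
  apply key (x * y) hxyc
  have e : (⟨(x * y) ^ 2, hZ (x * y)⟩ * t' : center Q) =
      (⟨x ^ 2, hZ x⟩ * ⟨y ^ 2, hZ y⟩ : center Q) := Subtype.ext hsq
  rw [e, ht2]
  rw [ht2] at hA hB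
  tauto

theorem zmod_two_cases : ∀ a : ZMod 2, a = 0 ∨ a = 1 := by decide

/-- The section for `q = 2`. -/
theorem section_two {t w : Q} (htq : t ^ 2 = 1) (hwt : w ^ 2 = t) (a b : ZMod 2) :
    pw 2 w (a + b) * pw 2 t 0 =
      pw 2 w a * pw 2 t 0 * (pw 2 w b * pw 2 t 0) * pw 2 t (-(a * b)) := by
  have h11 : (1 + 1 : ZMod 2) = 0 := by decide
  have hn1 : (-(1 * 1) : ZMod 2) = 1 := by decide
  rcases zmod_two_cases a with rfl | rfl
  · simp [pw_zero]
  · rcases zmod_two_cases b with rfl | rfl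
    · simp [pw_zero]
    · rw [h11, hn1]
      simp only [pw_zero, pw_one, mul_one]
      rw [← sq, hwt, ← sq, htq]

/-- The third case: `Q / Z` is elementary abelian, and `Ω₁(Z) = ⟨t⟩`. -/
theorem case_three [Finite Q] (hQ : IsPGroup q Q) (hcen : ∀ x y : Q, ⁅x, y⁆ ∈ center Q)
    (hna : ¬ ∀ x y : Q, x * y = y * x) {t : Q} (htc : t ∈ center Q) (hto : orderOf t = q)
    (hZ : ∀ x : Q, x ^ q ∈ center Q) (hΩ : ∀ u ∈ center Q, u ^ q = 1 → u ∈ zpowers t)
    (hbase : ∀ x, x ∉ center Q ⊓ frattini Q → q ≤ (AutOrbits.orb x).ncard) :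
    Nat.card (orbitRel.Quotient (MulAut Q) Q) * q ≤ Nat.card Q := by
  have htq : t ^ q = 1 := hto ▸ pow_orderOf_eq_one t
  have hcomm : ∀ x y : Q, ⁅x, y⁆ ∈ zpowers t := by
    intro x y
    refine hΩ _ (hcen x y) ?_
    rw [← comm_pow_left hcen]
    exact comm_left_central hcen (hZ x) y
  obtain ⟨w, hw, s, H1⟩ : ∃ w : Q, w ∉ center Q ∧ ∃ s : ZMod q → ZMod q, ∀ a b : ZMod q,
      pw q w (a + b) * pw q t (s (a + b)) =
      pw q w a * pw q t (s a) * (pw q w b * pw q t (s b)) * pw q t (-(a * b)) := by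
    by_cases hq2 : q = 2
    · subst hq2
      obtain ⟨w, hw, hwt⟩ := exists_w_two hcen hna htc hto hcomm hZ hΩ
      exact ⟨w, hw, fun _ => 0, fun a b => section_two htq hwt a b⟩
    · obtain ⟨w, hw, hwq⟩ := exists_w_odd hQ hcen hna hq2 hto hcomm hZ hΩ
      exact ⟨w, hw, fun a => -((a * a) / 2), fun a b => section_odd hcen hq2 htc htq hwq a b⟩
  have hM1 : center Q ≤ centralizer ({w} : Set Q) := Subgroup.center_le_centralizer _
  have hM2 : center Q ≠ centralizer ({w} : Set Q) := by
    intro h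
    apply hw
    rw [h, Subgroup.mem_centralizer_singleton_iff]
  have hM3 : centralizer ({w} : Set Q) ≠ ⊤ := by
    intro h
    apply hw
    rw [Subgroup.mem_center_iff]
    intro g
    have hg : g ∈ centralizer ({w} : Set Q) := by rw [h]; trivial
    exact Subgroup.mem_centralizer_singleton_iff.1 hg
  refine master hq.out.pos (center Q ⊓ frattini Q) (centralizer ({w} : Set Q))
    (inf_le_left.trans hM1) hbase ?_ (count_chain hQ inf_le_left hM1 hM2 hM3)
  intro x hx
  refine transvection_big hcen s htc hto hcomm H1 ?_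
  intro h
  apply hx
  rw [Subgroup.mem_centralizer_singleton_iff]
  exact ((commutatorElement_eq_one_iff_mul_comm).1 h)

/-- The number of automorphism orbits on a nonabelian `q`-group of class two is at most
`|Q| / q`. -/
theorem orbits_mul_le_of_class_two [Finite Q] (hQ : IsPGroup q Q)
    (hcen : ∀ x y : Q, ⁅x, y⁆ ∈ center Q) (hna : ¬ ∀ x y : Q, x * y = y * x) :
    Nat.card (orbitRel.Quotient (MulAut Q) Q) * q ≤ Nat.card Q := by
  have hcomm_le : commutator Q ≤ center Q := by
    rw [_root_.commutator_def, Subgroup.commutator_le]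
    intro a _ b _
    exact hcen a b
  have hPc : IsPGroup q (commutator Q) := hQ.to_subgroup _
  obtain ⟨n, hn⟩ := IsPGroup.iff_card.1 hPc
  have hne : n ≠ 0 := by
    rintro rfl
    rw [pow_zero] at hn
    haveI : Subsingleton (commutator Q) := (Nat.card_eq_one_iff_unique.1 hn).1
    apply hna
    intro a b
    have h1 : ⁅a, b⁆ ∈ commutator Q := Subgroup.commutator_mem_commutator trivial trivial
    have h2 : (⟨⁅a, b⁆, h1⟩ : commutator Q) = ⟨1, Subgroup.one_mem _⟩ := Subsingleton.elim _ _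
    exact (commutatorElement_eq_one_iff_mul_comm).1 (congrArg Subtype.val h2)
  obtain ⟨t', ht'⟩ := exists_prime_orderOf_dvd_card' (G := commutator Q) q
    (by rw [hn]; exact dvd_pow_self _ hne)
  have hto : orderOf (t' : Q) = q := by
    rw [← ht']; exact Subgroup.orderOf_coe t'
  have htc : (t' : Q) ∈ center Q := hcomm_le t'.2
  have htΦ : (t' : Q) ∈ frattini Q :=
    Cfsg.Agent.Lib.PGroup.Basic.commutator_le_frattini hQ t'.2
  have hbase := base_big hQ htc htΦ hto
  by_cases h1 : ∃ x : Q, x ^ q ∉ center Q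
  · obtain ⟨x₀, hx₀⟩ := h1
    exact case_one hQ hcen hna (center Q ⊓ frattini Q) inf_le_left hx₀ hbase
  push Not at h1
  by_cases h2 : ∃ u ∈ center Q, u ^ q = 1 ∧ u ∉ zpowers (t' : Q)
  · obtain ⟨u, huc, huq, hut⟩ := h2
    exact case_two hQ hcen hna htc hto huc huq hut hbase
  push Not at h2
  exact case_three hQ hcen hna htc hto h1 h2 hbase

end Cfsg.Agent.Lib.Nilpotent.AutOrbits
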