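import Mathlib
import Cfsg.Prelude.Def_Transfer
import Cfsg.Prelude.Def_OddOrderLocal
import Cfsg.Agent.Lib.Transfer.Basic
import Cfsg.Agent.Lib.Nilpotent.PClasses

/-!
# Counting conjugacy classes of `π`-elements
-/

set_option autoImplicit false

namespace Cfsg.Agent.Lib.Nilpotent.PiClasses

open Cfsg.Agent.Lib.Nilpotent.PClasses

universe u

/-- Number of conjugacy classes of `π`-elements. -/
noncomputable def kPi (π : Finset ℕ) (G : Type u) [Group G] : ℕ :=
  Nat.card {c : ConjClasses G // ∀ x ∈ c.carrier, ∀ r : ℕ, r.Prime → r ∣ orderOf x → r ∈ π}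

/-- The `π`-part of the order. -/
noncomputable def part (π : Finset ℕ) (G : Type u) : ℕ :=
  ∏ r ∈ π, r ^ (Nat.card G).factorization r

variable {G : Type u} [Group G] [Finite G]

theorem conj_mem_pred {σ : Set ℕ} {c : ConjClasses G} {x : G} (hx : ConjClasses.mk x = c)
    (h : ∀ r : ℕ, r.Prime → r ∣ orderOf x → r ∈ σ) :
    ∀ y ∈ c.carrier, ∀ r : ℕ, r.Prime → r ∣ orderOf y → r ∈ σ := by
  intro y hy r hr hd
  subst hx
  have hconj : IsConj x y :=
    (ConjClasses.mk_eq_mk_iff_isConj.1 (ConjClasses.mem_carrier_iff_mk_eq.1 hy)).symm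
  obtain ⟨g, rfl⟩ := isConj_iff.1 hconj
  rw [Cfsg.Agent.Lib.Transfer.Basic.orderOf_conj_eq] at hd
  exact h r hr hd

/-- Splitting off the `r`-part. -/
theorem kPi_insert_le (r : ℕ) [hr : Fact r.Prime] (σ : Finset ℕ) (B : ℕ)
    (hB : ∀ y : G, (∃ k : ℕ, orderOf y = r ^ k) →
      kPi σ (Subgroup.centralizer ({y} : Set G)) ≤ B) :
    kPi (insert r σ) G ≤ B * kP r G := by
  classical
  let T := {c : ConjClasses G // ∀ x ∈ c.carrier, ∀ s : ℕ, s.Prime → s ∣ orderOf x → s ∈ insert r σ}
  let R := {c : ConjClasses G // ∀ x ∈ c.carrier, ∃ k : ℕ, orderOf x = r ^ k}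
  have hrep : ∀ c : T, ∃ a b : G, ConjClasses.mk (a * b) = c.1 ∧ Commute a b ∧
      (∃ k : ℕ, orderOf a = r ^ k) ∧ ∀ s : ℕ, s.Prime → s ∣ orderOf b → s ∈ σ := by
    intro c
    obtain ⟨x, hx⟩ := ConjClasses.mk_surjective c.1
    have hxc : x ∈ c.1.carrier := hx ▸ ConjClasses.mem_carrier_mk
    obtain ⟨a, b, hab, hcomm, _, hb, ha, hbc⟩ :=
      Cfsg.Agent.Lib.Transfer.Basic.exists_pPart_decomp (p := r) x
    refine ⟨a, b, by rw [hab, hx], hcomm, ha, ?_⟩
    intro s hs hd
    have h1 : orderOf b ∣ orderOf x := orderOf_dvd_of_mem_zpowers hb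
    have h2 := c.2 x hxc s hs (hd.trans h1)
    rcases Finset.mem_insert.1 h2 with h3 | h3
    · subst h3
      exact absurd (Nat.Prime.one_lt hs) (by
        have := Nat.Coprime.eq_one_of_dvd (Nat.Coprime.symm hbc) hd
        omega)
    · exact h3
  choose a b hab hcomm ha hb using hrep
  have hrcl : ∀ c : T, ∀ x ∈ (ConjClasses.mk (a c)).carrier, ∃ k : ℕ, orderOf x = r ^ k := by
    intro c x hx
    have hconj : IsConj (a c) x :=
      (ConjClasses.mk_eq_mk_iff_isConj.1 (ConjClasses.mem_carrier_iff_mk_eq.1 hx)).symm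
    obtain ⟨g, rfl⟩ := isConj_iff.1 hconj
    rw [Cfsg.Agent.Lib.Transfer.Basic.orderOf_conj_eq]
    exact ha c
  let f : T → R := fun c => ⟨ConjClasses.mk (a c), hrcl c⟩
  haveI : Fintype T := Fintype.ofFinite _
  haveI : Fintype R := Fintype.ofFinite _
  have hfib : ∀ w : R, Nat.card {c : T // f c = w} ≤ B := by
    intro w
    obtain ⟨y, hy⟩ := ConjClasses.mk_surjective w.1
    have hyw : y ∈ w.1.carrier := hy ▸ ConjClasses.mem_carrier_mk
    have hyr := w.2 y hyw
    refine le_trans ?_ (hB y hyr)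
    have hg : ∀ c : {c : T // f c = w}, ∃ g : G, g * a c.1 * g⁻¹ = y := by
      intro c
      have h1 : ConjClasses.mk (a c.1) = ConjClasses.mk y := by
        rw [hy]; exact congrArg Subtype.val c.2
      exact isConj_iff.1 (ConjClasses.mk_eq_mk_iff_isConj.1 h1)
    choose g hg' using hg
    have hmem : ∀ c : {c : T // f c = w}, g c * b c.1 * (g c)⁻¹ ∈
        Subgroup.centralizer ({y} : Set G) := by
      intro c
      rw [Subgroup.mem_centralizer_singleton_iff, ← hg' c]
      have h1 : a c.1 * b c.1 = b c.1 * a c.1 := hcomm c.1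
      group
      calc _ = g c * (b c.1 * a c.1) * (g c)⁻¹ := by group
        _ = g c * (a c.1 * b c.1) * (g c)⁻¹ := by rw [h1]
        _ = _ := by group
    let C := Subgroup.centralizer ({y} : Set G)
    let F : {c : T // f c = w} →
        {d : ConjClasses C // ∀ x ∈ d.carrier, ∀ s : ℕ, s.Prime → s ∣ orderOf x → s ∈ σ} :=
      fun c => ⟨ConjClasses.mk ⟨_, hmem c⟩, by
        apply conj_mem_pred (σ := (σ : Set ℕ)) rfl
        intro s hs hd
        rw [Subgroup.orderOf_mk, Cfsg.Agent.Lib.Transfer.Basic.orderOf_conj_eq] at hd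
        exact hb c.1 s hs hd⟩
    apply Nat.card_le_card_of_injective F
    intro c d hcd
    have h1 := congrArg Subtype.val hcd
    have h2 := ConjClasses.mk_eq_mk_iff_isConj.1 h1
    obtain ⟨u, hu⟩ := isConj_iff.1 h2
    have hu' : (u : G) * (g c * b c.1 * (g c)⁻¹) * (u : G)⁻¹ = g d * b d.1 * (g d)⁻¹ :=
      congrArg Subtype.val hu
    have huy : (u : G) * y = y * u := (Subgroup.mem_centralizer_singleton_iff.1 u.2)
    -- conjugate the whole elements
    have hconj : IsConj (a c.1 * b c.1) (a d.1 * b d.1) := by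
      refine isConj_iff.2 ⟨(g d)⁻¹ * u * g c, ?_⟩
      have e1 : g c * a c.1 * (g c)⁻¹ = y := hg' c
      have e2 : g d * a d.1 * (g d)⁻¹ = y := hg' d
      have e3 : a c.1 = (g c)⁻¹ * y * g c := by rw [← e1]; group
      have e4 : a d.1 = (g d)⁻¹ * y * g d := by rw [← e2]; group
      have e5 : b d.1 = (g d)⁻¹ * ((u : G) * (g c * b c.1 * (g c)⁻¹) * (u : G)⁻¹) * g d := by
        rw [hu']; group
      have e6 : (u : G) * y * (u : G)⁻¹ = y := by rw [huy]; group
      calc (g d)⁻¹ * u * g c * (a c.1 * b c.1) * ((g d)⁻¹ * u * g c)⁻¹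
          = (g d)⁻¹ * (((u : G) * (g c * a c.1 * (g c)⁻¹) * (u : G)⁻¹) *
              ((u : G) * (g c * b c.1 * (g c)⁻¹) * (u : G)⁻¹)) * g d := by group
        _ = (g d)⁻¹ * (y * ((u : G) * (g c * b c.1 * (g c)⁻¹) * (u : G)⁻¹)) * g d := by
            rw [e1, e6]
        _ = a d.1 * b d.1 := by
            rw [e4, e5]; group
    apply Subtype.ext
    apply Subtype.ext
    rw [← hab c.1, ← hab d.1, ConjClasses.mk_eq_mk_iff_isConj]
    exact hconj
  have hfib' : ∀ w ∈ (Finset.univ : Finset T).image f,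
      ((Finset.univ : Finset T).filter fun c => f c = w).card ≤ B := by
    intro w _
    have := hfib w
    rwa [Nat.card_eq_fintype_card, Fintype.card_subtype] at this
  have h1 := Finset.card_le_mul_card_image (Finset.univ : Finset T) B hfib'
  have h2 : ((Finset.univ : Finset T).image f).card ≤ Nat.card R := by
    rw [Nat.card_eq_fintype_card]
    exact Finset.card_le_univ _
  calc kPi (insert r σ) G = (Finset.univ : Finset T).card := by
        rw [Finset.card_univ, ← Nat.card_eq_fintype_card]; rfl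
    _ ≤ B * ((Finset.univ : Finset T).image f).card := h1
    _ ≤ B * kP r G := Nat.mul_le_mul_left _ h2

/-- `k_σ(G) ≤ |G|_σ`. -/
theorem kPi_le (σ : Finset ℕ) (hσ : ∀ r ∈ σ, r.Prime) :
    ∀ (G : Type u) [Group G] [Finite G], kPi σ G ≤ part σ G := by
  classical
  induction σ using Finset.induction_on with
  | empty =>
    intro G _ _
    have : Subsingleton {c : ConjClasses G // ∀ x ∈ c.carrier, ∀ r : ℕ, r.Prime → r ∣ orderOf x → r ∈ (∅ : Finset ℕ)} := by
      constructor
      have key : ∀ c : {c : ConjClasses G // ∀ x ∈ c.carrier, ∀ r : ℕ, r.Prime → r ∣ orderOf x → r ∈ (∅ : Finset ℕ)},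
          c.1 = ConjClasses.mk 1 := by
        intro c
        obtain ⟨x, hx⟩ := ConjClasses.mk_surjective c.1
        have hxc : x ∈ c.1.carrier := hx ▸ ConjClasses.mem_carrier_mk
        have h1 : orderOf x = 1 := by
          by_contra hne
          obtain ⟨q, hq, hd⟩ := Nat.exists_prime_and_dvd hne
          exact absurd (c.2 x hxc q hq hd) (Finset.notMem_empty q)
        rw [← hx, orderOf_eq_one_iff.1 h1]
      intro c d
      exact Subtype.ext ((key c).trans (key d).symm)
    have h1 : kPi (∅ : Finset ℕ) G ≤ 1 := Finite.card_le_one_iff_subsingleton.2 this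
    simpa [part] using h1
  | insert r σ hr ih =>
    intro G _ _
    have hrp := hσ r (Finset.mem_insert_self r σ)
    haveI : Fact r.Prime := ⟨hrp⟩
    have hσ' : ∀ s ∈ σ, s.Prime := fun s hs => hσ s (Finset.mem_insert_of_mem hs)
    have h1 := kPi_insert_le (G := G) r σ (part σ G) (by
      intro y _
      refine (ih hσ' _).trans ?_
      apply Finset.prod_le_prod (fun _ _ => Nat.zero_le _)
      intro s hs
      apply Nat.pow_le_pow_right (hσ' s hs).pos
      exact (Nat.factorization_le_iff_dvd Nat.card_pos.ne' Nat.card_pos.ne').2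
        (Subgroup.card_subgroup_dvd_card _) s)
    obtain ⟨P⟩ : Nonempty (Sylow r G) := Sylow.nonempty
    have h2 := kP_le_card P
    rw [Sylow.card_eq_multiplicity] at h2
    have h3 : part (insert r σ) G = r ^ (Nat.card G).factorization r * part σ G :=
      Finset.prod_insert hr
    rw [h3, mul_comm]
    exact h1.trans (Nat.mul_le_mul_left _ h2)

/-- The `π`-part of the order is positive. -/
theorem part_pos (σ : Finset ℕ) (hσ : ∀ r ∈ σ, r.Prime) (G : Type u) : 0 < part σ G :=
  Finset.prod_pos fun r hr => pow_pos (hσ r hr).pos _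

/-- If `k_π(G) > (p+1)|G|_π/(2p)`, `p = min π` and `π` consists of odd primes, then for each
`r ∈ π` the group has a normal `r`-complement and abelian Sylow `r`-subgroups. -/
theorem forward_each (π : Finset ℕ) (hπ : ∀ r ∈ π, r.Prime) (h2 : 2 ∉ π) (p : ℕ) (hp : p ∈ π)
    (hmin : ∀ r ∈ π, p ≤ r) (hk : (p + 1) * part π G < 2 * p * kPi π G) (r : ℕ) (hr : r ∈ π)
    [Fact r.Prime] (P : Sylow r G) :
    Cfsg.HasNormalPComplement r G ∧ IsMulCommutative (P : Subgroup G) := by
  classical
  have hrp := hπ r hr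
  have hr2 : r ≠ 2 := fun h => h2 (h ▸ hr)
  set σ := π.erase r with hσ
  have hσp : ∀ s ∈ σ, s.Prime := fun s hs => hπ s (Finset.mem_of_mem_erase hs)
  have hins : insert r σ = π := Finset.insert_erase hr
  have h1 : kPi π G ≤ part σ G * kP r G := by
    rw [← hins]
    apply kPi_insert_le
    intro y _
    refine (kPi_le σ hσp _).trans ?_
    apply Finset.prod_le_prod (fun _ _ => Nat.zero_le _)
    intro s hs
    apply Nat.pow_le_pow_right (hσp s hs).pos
    exact (Nat.factorization_le_iff_dvd Nat.card_pos.ne' Nat.card_pos.ne').2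
      (Subgroup.card_subgroup_dvd_card _) s
  have h3 : part π G = Nat.card (P : Subgroup G) * part σ G := by
    rw [Sylow.card_eq_multiplicity]
    have h4 : part (insert r σ) G = r ^ (Nat.card G).factorization r * part σ G :=
      Finset.prod_insert (Finset.notMem_erase r π)
    rw [← h4, hins]
  have hσpos := part_pos σ hσp G
  rw [h3] at hk
  have h4 : (p + 1) * Nat.card (P : Subgroup G) < 2 * p * kP r G := by
    have h5 : ((p + 1) * Nat.card (P : Subgroup G)) * part σ G < (2 * p * kP r G) * part σ G := by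
      calc ((p + 1) * Nat.card (P : Subgroup G)) * part σ G
          = (p + 1) * (Nat.card (P : Subgroup G) * part σ G) := by ring
        _ < 2 * p * kPi π G := hk
        _ ≤ 2 * p * (part σ G * kP r G) := Nat.mul_le_mul_left _ h1
        _ = _ := by ring
    exact Nat.lt_of_mul_lt_mul_right h5
  have hpr : p ≤ r := hmin r hr
  have hppos : 0 < p := (hπ p hp).pos
  have h6 : (r + 1) * Nat.card (P : Subgroup G) < 2 * r * kP r G := by
    have h7 : p * ((r + 1) * Nat.card (P : Subgroup G)) < p * (2 * r * kP r G) := by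
      calc p * ((r + 1) * Nat.card (P : Subgroup G))
          = (p * r + p) * Nat.card (P : Subgroup G) := by ring
        _ ≤ (p * r + r) * Nat.card (P : Subgroup G) := by
            apply Nat.mul_le_mul_right; omega
        _ = r * ((p + 1) * Nat.card (P : Subgroup G)) := by ring
        _ < r * (2 * p * kP r G) := Nat.mul_lt_mul_of_pos_left h4 hrp.pos
        _ = _ := by ring
    exact Nat.lt_of_mul_lt_mul_left h7
  exact forward hr2 P h6

/-- S3899 in terms of `kPi`. -/
theorem main (π : Finset ℕ) (hπ : ∀ r ∈ π, r.Prime) (h2 : 2 ∉ π) (p : ℕ) (hp : p ∈ π)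
    (hmin : ∀ r ∈ π, p ≤ r) (hk : (p + 1) * part π G < 2 * p * kPi π G) :
    (∃ N : Subgroup G, N.Normal ∧ (∀ r : ℕ, r.Prime → r ∣ Nat.card ↥N → r ∉ π) ∧
      ∀ r : ℕ, r.Prime → r ∣ N.index → r ∈ π) ∧
    ∃ H : Subgroup G, Cfsg.IsPiHall (↑π : Set ℕ) H ∧ IsMulCommutative ↥H := by
  classical
  have heach : ∀ r ∈ π, ∀ [Fact r.Prime] (P : Sylow r G),
      Cfsg.HasNormalPComplement r G ∧ IsMulCommutative (P : Subgroup G) := by
    intro r hr _ P
    exact forward_each π hπ h2 p hp hmin hk r hr P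
  let N : Subgroup G := ⨅ r ∈ π, Cfsg.pResidual r G
  have hmemN : ∀ x : G, x ∈ N ↔ ∀ r ∈ π, x ∈ Cfsg.pResidual r G := by
    intro x
    simp only [N, Subgroup.mem_iInf]
  have hres : ∀ r ∈ π, (Cfsg.pResidual r G).Normal := fun r _ => inferInstance
  have hNn : N.Normal := by
    constructor
    intro x hx g
    rw [hmemN] at hx ⊢
    intro r hr
    exact (hres r hr).conj_mem x (hx r hr) g
  -- each `pResidual r` is a complement with abelian quotient
  have hcop : ∀ r ∈ π, (Nat.card (Cfsg.pResidual r G)).Coprime r := by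
    intro r hr
    haveI : Fact r.Prime := ⟨hπ r hr⟩
    obtain ⟨P⟩ : Nonempty (Sylow r G) := Sylow.nonempty
    exact Cfsg.Agent.Lib.Transfer.Basic.hasNormalPComplement_iff_pResidual.1 (heach r hr P).1
  have hcomm : ∀ r ∈ π, ∀ x y : G, x * y * x⁻¹ * y⁻¹ ∈ Cfsg.pResidual r G := by
    intro r hr x y
    haveI : Fact r.Prime := ⟨hπ r hr⟩
    obtain ⟨P⟩ : Nonempty (Sylow r G) := Sylow.nonempty
    have hab := (heach r hr P).2
    haveI := hres r hr
    have hc : (Cfsg.pResidual r G).IsComplement' (P : Subgroup G) :=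
      Cfsg.Agent.Lib.Transfer.Basic.isComplement'_of_coprime_of_isPGroup P (hcop r hr)
        Cfsg.Agent.Lib.Transfer.Basic.isPGroup_quotient_pResidual
    have hsplit : ∀ g : G, ∃ u ∈ (P : Subgroup G), QuotientGroup.mk (s := Cfsg.pResidual r G) g =
        QuotientGroup.mk u := by
      intro g
      obtain ⟨⟨⟨n, hn⟩, ⟨u, hu⟩⟩, hnu⟩ := hc.2 g
      have hnu' : n * u = g := hnu
      refine ⟨u, hu, ?_⟩
      rw [QuotientGroup.eq, ← hnu']
      have : (n * u)⁻¹ * u = u⁻¹ * n⁻¹ * u := by group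
      rw [this]
      have h1 := (hres r hr).conj_mem n⁻¹ ((Cfsg.pResidual r G).inv_mem hn) u⁻¹
      simpa using h1
    obtain ⟨u, hu, hxu⟩ := hsplit x
    obtain ⟨v, hv, hyv⟩ := hsplit y
    have huv : u * v = v * u := by
      have := hab.is_comm.comm (⟨u, hu⟩ : (P : Subgroup G)) ⟨v, hv⟩
      exact congrArg Subtype.val this
    rw [← QuotientGroup.eq_one_iff]
    have e : ((x * y * x⁻¹ * y⁻¹ : G) : G ⧸ Cfsg.pResidual r G) =
        (x : G ⧸ Cfsg.pResidual r G) * y * (x : G ⧸ Cfsg.pResidual r G)⁻¹ * (y : G ⧸ Cfsg.pResidual r G)⁻¹ := rfl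
    rw [e, hxu, hyv]
    have e2 : (u : G ⧸ Cfsg.pResidual r G) * v = v * u := by
      rw [← QuotientGroup.mk_mul, huv, QuotientGroup.mk_mul]
    rw [e2]; group
  have hNcop : ∀ r ∈ π, ¬ r ∣ Nat.card N := by
    intro r hr hd
    have hle : N ≤ Cfsg.pResidual r G := fun x hx => (hmemN x).1 hx r hr
    have h1 : Nat.card N ∣ Nat.card (Cfsg.pResidual r G) := Subgroup.card_dvd_of_le hle
    have h3 := Nat.Coprime.coprime_dvd_left h1 (hcop r hr)
    have h4 : r ∣ 1 := by
      have := Nat.dvd_gcd hd (dvd_refl r)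
      rwa [h3] at this
    exact (hπ r hr).one_lt.ne' (Nat.dvd_one.1 h4)
  have hNidx : ∀ r : ℕ, r.Prime → r ∣ N.index → r ∈ π := by
    intro r hr hd
    by_contra hrπ
    haveI : Fact r.Prime := ⟨hr⟩
    haveI := hNn
    rw [Subgroup.index_eq_card] at hd
    obtain ⟨xbar, hx⟩ := exists_prime_orderOf_dvd_card' r hd
    obtain ⟨x, rfl⟩ := QuotientGroup.mk_surjective xbar
    have hxr : x ^ r ∈ N := by
      rw [← QuotientGroup.eq_one_iff, QuotientGroup.mk_pow, ← hx, pow_orderOf_eq_one]
    have hxN : x ∈ N := by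
      rw [hmemN]
      intro s hs
      haveI : Fact s.Prime := ⟨hπ s hs⟩
      haveI := hres s hs
      have hxs : x ^ r ∈ Cfsg.pResidual s G := (hmemN _).1 hxr s hs
      have hQ : IsPGroup s (G ⧸ Cfsg.pResidual s G) :=
        Cfsg.Agent.Lib.Transfer.Basic.isPGroup_quotient_pResidual
      obtain ⟨k, hk⟩ := (IsPGroup.iff_orderOf.1 hQ) (x : G ⧸ Cfsg.pResidual s G)
      have h1 : (x : G ⧸ Cfsg.pResidual s G) ^ r = 1 := by
        rw [← QuotientGroup.mk_pow, QuotientGroup.eq_one_iff]; exact hxs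
      have h3 := orderOf_dvd_of_pow_eq_one h1
      rw [hk] at h3
      have hsr : s ≠ r := fun h => hrπ (h ▸ hs)
      have h4 : k = 0 := by
        by_contra hk0
        have h5 : s ∣ r := (dvd_pow_self s hk0).trans h3
        exact hsr ((Nat.prime_dvd_prime_iff_eq (hπ s hs) hr).1 h5)
      rw [h4, pow_zero, orderOf_eq_one_iff, QuotientGroup.eq_one_iff] at hk
      exact hk
    have : orderOf (x : G ⧸ N) = 1 := by
      rw [orderOf_eq_one_iff, QuotientGroup.eq_one_iff]; exact hxN
    rw [this] at hx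
    exact hr.one_lt.ne hx
  refine ⟨⟨N, hNn, fun r _ hd hr => hNcop r hr hd, hNidx⟩, ?_⟩
  have hcopN : (Nat.card N).Coprime N.index := by
    apply Nat.coprime_of_dvd
    intro q hq h1 h3
    exact hNcop q (hNidx q hq h3) h1
  haveI := hNn
  obtain ⟨H, hH⟩ := Subgroup.exists_right_complement'_of_coprime hcopN
  have hcardH : Nat.card N * Nat.card H = Nat.card G := hH.card_mul
  have hcardN := Subgroup.card_mul_index N
  have hHcard : Nat.card H = N.index := by
    rw [← hcardN] at hcardH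
    exact Nat.eq_of_mul_eq_mul_left Nat.card_pos hcardH
  have hHidx : H.index = Nat.card N := by
    have h3 := Subgroup.card_mul_index H
    rw [← hcardH, mul_comm] at h3
    exact Nat.eq_of_mul_eq_mul_right Nat.card_pos h3
  refine ⟨H, ⟨?_, ?_⟩, ?_⟩
  · intro q hq hd
    rw [hHcard] at hd
    exact hNidx q hq hd
  · intro q _ hqπ hd
    rw [hHidx] at hd
    exact hNcop q hqπ hd
  · constructor
    constructor
    intro a b
    apply Subtype.ext
    have h1 : (a : G) * b * (a : G)⁻¹ * (b : G)⁻¹ ∈ N := by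
      rw [hmemN]
      intro r hr
      exact hcomm r hr a b
    have h3 : (a : G) * b * (a : G)⁻¹ * (b : G)⁻¹ ∈ H :=
      H.mul_mem (H.mul_mem (H.mul_mem a.2 b.2) (H.inv_mem a.2)) (H.inv_mem b.2)
    have h4 := Subgroup.disjoint_def.1 hH.disjoint h1 h3
    have h5 : (a : G) * b * (a : G)⁻¹ = b := by
      rw [mul_inv_eq_one] at h4; exact h4
    show (a : G) * b = b * a
    rw [mul_inv_eq_iff_eq_mul] at h5
    exact h5

end Cfsg.Agent.Lib.Nilpotent.PiClasses
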