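import Mathlib
import Cfsg.Agent.S1479
import Cfsg.Agent.Lib.Basic.SylowUtil
import Cfsg.Agent.Lib.Basic.ProductCard
import Cfsg.Agent.Lib.Char.Burnside2

/-!
# Groups all of whose non-identity elements have prime order

Odd order case: such a group with at most three prime divisors is solvable.
-/

set_option autoImplicit false

open Cfsg

namespace Cfsg.Agent.Lib.Nilpotent.PrimeOrder

universe u

/-- Every non-identity element has prime order. -/
def PO (G : Type*) [Group G] : Prop := ∀ g : G, g ≠ 1 → (orderOf g).Prime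

section basic

variable {G : Type*} [Group G]

theorem PO.orderOf_eq_of_commute (hG : PO G) {x y : G} (hx : x ≠ 1) (hy : y ≠ 1)
    (h : Commute x y) : orderOf x = orderOf y := by
  by_contra hne
  have hpx := hG x hx
  have hpy := hG y hy
  have hcop : (orderOf x).Coprime (orderOf y) := (Nat.coprime_primes hpx hpy).2 hne
  have h1 : orderOf (x * y) = orderOf x * orderOf y := h.orderOf_mul_eq_mul_orderOf_of_coprime hcop
  have hxy : x * y ≠ 1 := by
    intro h2
    rw [h2, orderOf_one] at h1
    have := hpx.one_lt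
    have := hpy.one_lt
    nlinarith
  have := hG _ hxy
  rw [h1] at this
  exact Nat.not_prime_mul hpx.ne_one hpy.ne_one this

theorem PO.pow_eq_one_of_commute (hG : PO G) {x y : G} (hx : x ≠ 1) (h : Commute x y) :
    y ^ orderOf x = 1 := by
  by_cases hy : y = 1
  · simp [hy]
  · rw [hG.orderOf_eq_of_commute hx hy h]; exact pow_orderOf_eq_one y

theorem PO.isPGroup_centralizer (hG : PO G) {x : G} (hx : x ≠ 1) :
    IsPGroup (orderOf x) (Subgroup.centralizer ({x} : Set G)) := by
  intro y
  refine ⟨1, ?_⟩
  apply Subtype.ext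
  have hc : Commute x (y : G) := by
    have := Subgroup.mem_centralizer_singleton_iff.1 y.2
    exact this.symm
  simpa using hG.pow_eq_one_of_commute hx hc

theorem PO.subgroup (hG : PO G) (H : Subgroup G) : PO H := by
  intro g hg
  rw [Subgroup.orderOf_coe g |>.symm]
  apply hG
  simpa using hg

theorem PO.quotient (hG : PO G) (N : Subgroup G) [N.Normal] : PO (G ⧸ N) := by
  intro g hg
  obtain ⟨x, rfl⟩ := QuotientGroup.mk_surjective g
  have hx : x ≠ 1 := by
    rintro rfl
    exact hg rfl
  have hp := hG x hx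
  have hd : orderOf (x : G ⧸ N) ∣ orderOf x := by
    apply orderOf_dvd_of_pow_eq_one
    rw [← QuotientGroup.mk_pow, pow_orderOf_eq_one]
    rfl
  rcases (Nat.dvd_prime hp).1 hd with h | h
  · exact absurd (orderOf_eq_one_iff.1 h) hg
  · rw [h]; exact hp

theorem PO.isPGroup_of_isNilpotent [Finite G] (hG : PO G) [Group.IsNilpotent G] {x : G} (hx : x ≠ 1) :
    IsPGroup (orderOf x) G := by
  -- the centre has an element of prime order commuting with everything
  have hc : (⊤ : Subgroup G) ⊓ Subgroup.center G ≠ ⊥ := by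
    apply Cfsg.Agent.Lib.Basic.SylowUtil.inf_center_ne_bot_of_isNilpotent
    intro h
    apply hx
    have : x ∈ (⊥ : Subgroup G) := by rw [← h]; trivial
    simpa using this
  rw [top_inf_eq] at hc
  obtain ⟨z, hz, hz1⟩ := (Subgroup.ne_bot_iff_exists_ne_one.1 hc |> fun ⟨z, hz⟩ =>
    (⟨(z : G), z.2, fun h => hz (Subtype.ext h)⟩ : ∃ z : G, z ∈ Subgroup.center G ∧ z ≠ 1))
  have hzc : ∀ y : G, Commute z y := fun y => (Subgroup.mem_center_iff.1 hz y).symm
  have hord : orderOf z = orderOf x := hG.orderOf_eq_of_commute hz1 hx (hzc x)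
  intro y
  refine ⟨1, ?_⟩
  rw [pow_one, ← hord]
  exact hG.pow_eq_one_of_commute hz1 (hzc y)

end basic

section odd

variable {S : Type u} [Group S] [Finite S]

/-- The count contradiction in a minimal simple group of odd order with exactly three primes. -/
theorem false_of_minSimple (hmin : IsMinSimpleOddOrder S) (hPO : PO S)
    (h3 : (Nat.card S).primeFactors.card ≤ 3) : False := by
  classical
  haveI := Fintype.ofFinite S
  obtain ⟨hodd, hsimple, hna, hsub⟩ := hmin
  haveI := hsimple
  have hCN : IsCNGroup S := by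
    intro g hg
    haveI : Fact (orderOf g).Prime := ⟨hPO g hg⟩
    exact (hPO.isPGroup_centralizer hg).isNilpotent
  have hns : ¬ Group.IsSolvable S := by
    intro hs
    exact hna ⟨⟨fun a b => IsSimpleGroup.comm_iff_isSolvable.2 hs a b⟩⟩
  set N := Nat.card S with hN
  have hNpos : 0 < N := Nat.card_pos
  -- at least three primes
  have h3' : 3 ≤ N.primeFactors.card := by
    by_contra hlt
    push_neg at hlt
    apply hns
    have hpf : N.primeFactors.card = 0 ∨ N.primeFactors.card = 1 ∨ N.primeFactors.card = 2 := by omega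
    have hprod : N = ∏ p ∈ N.primeFactors, p ^ N.factorization p := by
      conv_lhs => rw [← Nat.factorization_prod_pow_eq_self hNpos.ne']
      rfl
    rcases hpf with h0 | h1 | h2
    · rw [Finset.card_eq_zero] at h0
      rw [h0, Finset.prod_empty] at hprod
      exact @Cfsg.Agent.Lib.Char.Burnside2.isSolvable_of_card_eq 3 5 (by norm_num) (by norm_num) N S _ _ 0 0 rfl (by simp only [pow_zero, mul_one]; exact hprod)
    · obtain ⟨p, hp⟩ := Finset.card_eq_one.1 h1
      rw [hp, Finset.prod_singleton] at hprod
      have hpp : p.Prime := Nat.prime_of_mem_primeFactors (by rw [hp]; simp)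
      have : ∃ q : ℕ, q.Prime ∧ q ≠ p := ⟨if p = 2 then 3 else 2, by split_ifs <;> norm_num, by
        split_ifs with h <;> omega⟩
      obtain ⟨q, hq, -⟩ := this
      exact Cfsg.Agent.Lib.Char.Burnside2.isSolvable_of_card_eq hpp hq N S _ 0 rfl (by simp only [pow_zero, mul_one]; exact hprod)
    · obtain ⟨p, q, hne, hpq⟩ := Finset.card_eq_two.1 h2
      rw [hpq, Finset.prod_pair hne] at hprod
      have hpp : p.Prime := Nat.prime_of_mem_primeFactors (by rw [hpq]; simp)
      have hqp : q.Prime := Nat.prime_of_mem_primeFactors (by rw [hpq]; simp)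
      exact Cfsg.Agent.Lib.Char.Burnside2.isSolvable_of_card_eq hpp hqp N S _ _ rfl hprod
  have hk : N.primeFactors.card = 3 := le_antisymm h3 h3'
  -- Sylow data
  have key : ∀ p ∈ N.primeFactors, 3 * (Nat.card (Sylow p S) * p ^ N.factorization p) ≤ N := by
    intro p hp
    have hpp : p.Prime := Nat.prime_of_mem_primeFactors hp
    haveI : Fact p.Prime := ⟨hpp⟩
    obtain ⟨P⟩ : Nonempty (Sylow p S) := inferInstance
    have hcard : Nat.card P = p ^ N.factorization p := P.card_eq_multiplicity
    have hdvd : p ∣ Nat.card P := by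
      rw [hcard]
      exact dvd_pow_self p (by
        have := (Nat.Prime.dvd_iff_one_le_factorization hpp hNpos.ne').1 (Nat.dvd_of_mem_primeFactors hp)
        omega)
    have hne : (P : Subgroup S) ≠ ⊥ := by
      intro h
      rw [h, Subgroup.card_bot] at hdvd
      exact hpp.one_lt.ne' (Nat.dvd_one.1 hdvd)
    have hmaxnil : ∀ L : Subgroup S, Group.IsNilpotent L → (P : Subgroup S) ≤ L → L = P := by
      intro L hL hPL
      obtain ⟨x, hx, hx1⟩ := (Subgroup.ne_bot_iff_exists_ne_one.1 hne |> fun ⟨z, hz⟩ =>
        (⟨(z : S), z.2, fun h => hz (Subtype.ext h)⟩ : ∃ z : S, z ∈ (P : Subgroup S) ∧ z ≠ 1))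
      have hxord : orderOf x = p := by
        obtain ⟨k, hk⟩ := Cfsg.Agent.Lib.Basic.SylowUtil.orderOf_eq_pow_of_mem P hx
        have := hPO x hx1
        rw [hk] at this ⊢
        have hk1 : k = 1 := by
          have := (Nat.Prime.pow_eq_iff this).1 rfl
          exact this.2
        rw [hk1, pow_one]
      have hx' : (⟨x, hPL hx⟩ : L) ≠ 1 := by
        intro h
        exact hx1 (congrArg Subtype.val h)
      have hpg : IsPGroup p L := by
        have := (hPO.subgroup L).isPGroup_of_isNilpotent hx'
        rwa [Subgroup.orderOf_mk, hxord] at this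
      have := Cfsg.Agent.Lib.Basic.SylowUtil.eq_of_sylow_le hpg P hPL
      exact this
    have hnil : Group.IsNilpotent (P : Subgroup S) := P.isPGroup'.isNilpotent
    obtain ⟨-, -, -, E, hE, hEne, -⟩ := (Cfsg.Agent.S1479.result ⟨hodd, hsimple, hna, hsub⟩ hCN).1 P hnil hmaxnil
    obtain ⟨hPN, hEN, hinf, -⟩ := hE
    have hcardE : 3 ≤ Nat.card E := by
      have hd : Nat.card E ∣ N := Subgroup.card_subgroup_dvd_card E
      have hoddE : Odd (Nat.card E) := Odd.of_dvd_nat hodd hd
      have hne1 : Nat.card E ≠ 1 := by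
        intro h
        exact hEne (Subgroup.card_eq_one.1 h)
      obtain ⟨m, hm⟩ := hoddE
      omega
    have hle : Nat.card P * Nat.card E ≤ Nat.card (Subgroup.normalizer ((P : Subgroup S) : Set S)) := by
      have h1 := Cfsg.Agent.Lib.Basic.ProductCard.card_mul_card_le_sup_mul_inf (P : Subgroup S) E
      rw [hinf, Subgroup.card_bot, mul_one] at h1
      exact h1.trans (Subgroup.card_le_of_le (sup_le hPN hEN))
    have hcs : Nat.card (Sylow p S) * Nat.card (Subgroup.normalizer ((P : Subgroup S) : Set S)) = N := by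
      rw [Sylow.card_eq_index_normalizer P]
      exact Subgroup.index_mul_card _
    calc 3 * (Nat.card (Sylow p S) * p ^ N.factorization p)
        = Nat.card (Sylow p S) * (Nat.card P * 3) := by rw [hcard]; ring
      _ ≤ Nat.card (Sylow p S) * (Nat.card P * Nat.card E) := by gcongr
      _ ≤ Nat.card (Sylow p S) * Nat.card (Subgroup.normalizer ((P : Subgroup S) : Set S)) := by gcongr
      _ = N := hcs
  -- union bound
  have hunion : N - 1 ≤ ∑ p ∈ N.primeFactors, Nat.card (Sylow p S) * (p ^ N.factorization p - 1) := by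
    have hcover : (Finset.univ.erase (1 : S)) ⊆ N.primeFactors.biUnion (fun p =>
        (Finset.univ : Finset (Sylow p S)).biUnion (fun Q =>
          (Finset.univ.filter (fun x => x ∈ (Q : Subgroup S))).erase 1)) := by
      intro x hx
      have hx1 : x ≠ 1 := (Finset.mem_erase.1 hx).1
      have hpp := hPO x hx1
      haveI : Fact (orderOf x).Prime := ⟨hpp⟩
      obtain ⟨Q, hQ⟩ := Cfsg.Agent.Lib.Basic.SylowUtil.exists_sylow_of_orderOf (x := x) (p := orderOf x) (k := 1) (by simp)
      refine Finset.mem_biUnion.2 ⟨orderOf x, Nat.mem_primeFactors.2 ⟨hpp, orderOf_dvd_natCard x, hNpos.ne'⟩, ?_⟩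
      refine Finset.mem_biUnion.2 ⟨Q, Finset.mem_univ _, ?_⟩
      exact Finset.mem_erase.2 ⟨hx1, Finset.mem_filter.2 ⟨Finset.mem_univ _, hQ⟩⟩
    have hcard1 : (Finset.univ.erase (1 : S)).card = N - 1 := by
      rw [Finset.card_erase_of_mem (Finset.mem_univ _), Finset.card_univ, hN, Nat.card_eq_fintype_card]
    rw [← hcard1]
    refine (Finset.card_le_card hcover).trans (Finset.card_biUnion_le.trans ?_)
    refine Finset.sum_le_sum fun p hp => ?_
    have hpp : p.Prime := Nat.prime_of_mem_primeFactors hp
    haveI : Fact p.Prime := ⟨hpp⟩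
    refine Finset.card_biUnion_le.trans ?_
    have : ∀ Q ∈ (Finset.univ : Finset (Sylow p S)),
        ((Finset.univ.filter (fun x => x ∈ (Q : Subgroup S))).erase 1).card = p ^ N.factorization p - 1 := by
      intro Q _
      rw [Finset.card_erase_of_mem (Finset.mem_filter.2 ⟨Finset.mem_univ _, Subgroup.one_mem _⟩)]
      congr 1
      have h1 : Nat.card Q = p ^ N.factorization p := Q.card_eq_multiplicity
      rw [← h1, Nat.card_eq_fintype_card, Fintype.card_subtype]
    rw [Finset.sum_congr rfl this, Finset.sum_const, Finset.card_univ, Nat.card_eq_fintype_card, smul_eq_mul]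
  have hsum : ∑ p ∈ N.primeFactors, (3 * (Nat.card (Sylow p S) * (p ^ N.factorization p - 1)) + 3 * Nat.card (Sylow p S)) ≤ ∑ _p ∈ N.primeFactors, N := by
    refine Finset.sum_le_sum fun p hp => ?_
    have hpp : p.Prime := Nat.prime_of_mem_primeFactors hp
    have h1 := key p hp
    have hpos : 1 ≤ p ^ N.factorization p := Nat.one_le_pow _ _ hpp.pos
    calc 3 * (Nat.card (Sylow p S) * (p ^ N.factorization p - 1)) + 3 * Nat.card (Sylow p S)
        = 3 * (Nat.card (Sylow p S) * ((p ^ N.factorization p - 1) + 1)) := by ring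
      _ = 3 * (Nat.card (Sylow p S) * p ^ N.factorization p) := by rw [Nat.sub_add_cancel hpos]
      _ ≤ N := h1
  rw [Finset.sum_add_distrib, ← Finset.mul_sum, ← Finset.mul_sum, Finset.sum_const, hk, smul_eq_mul] at hsum
  have hn : 3 ≤ ∑ p ∈ N.primeFactors, Nat.card (Sylow p S) := by
    have : ∑ _p ∈ N.primeFactors, 1 ≤ ∑ p ∈ N.primeFactors, Nat.card (Sylow p S) := by
      refine Finset.sum_le_sum fun p hp => ?_
      exact Nat.card_pos
    rwa [Finset.sum_const, hk, smul_eq_mul, mul_one] at this
  omega

/-- Odd order, all non-identity elements of prime order, at most three primes: solvable. -/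
theorem isSolvable_of_odd : ∀ (n : ℕ) (G : Type u) [Group G] [Finite G], Nat.card G = n → Odd n → PO G →
    (Nat.card G).primeFactors.card ≤ 3 → Group.IsSolvable G := by
  intro n
  induction n using Nat.strong_induction_on with
  | _ n ih =>
    intro G _ _ hn hodd hPO h3
    have hsubpf : ∀ d : ℕ, d ∣ Nat.card G → d.primeFactors.card ≤ 3 := by
      intro d hd
      have hne : Nat.card G ≠ 0 := Nat.card_pos.ne'
      exact (Finset.card_le_card (Nat.primeFactors_mono hd hne)).trans h3
    by_cases hsimple : IsSimpleGroup G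
    · haveI := hsimple
      by_cases hcomm : IsMulCommutative G
      · exact IsSimpleGroup.comm_iff_isSolvable.1 (fun a b => hcomm.is_comm.comm a b)
      · exfalso
        refine false_of_minSimple (S := G) ⟨hn ▸ hodd, hsimple, hcomm, ?_⟩ hPO h3
        intro H hH
        have hlt : Nat.card H < n := by
          rw [← hn]
          exact lt_of_le_of_ne (Subgroup.card_le_card_group H) (fun h => hH (Subgroup.eq_top_of_card_eq H h))
        have hd : Nat.card H ∣ n := hn ▸ Subgroup.card_subgroup_dvd_card H
        exact ih _ hlt H rfl (Odd.of_dvd_nat hodd hd) (hPO.subgroup H) (hsubpf _ (hn ▸ hd))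
    · by_cases htriv : Subsingleton G
      · infer_instance
      · rw [not_subsingleton_iff_nontrivial] at htriv
        have hex : ∃ N : Subgroup G, N.Normal ∧ N ≠ ⊥ ∧ N ≠ ⊤ := by
          by_contra hno
          push_neg at hno
          apply hsimple
          refine ⟨fun N hN => ?_⟩
          by_cases hb : N = ⊥
          · exact Or.inl hb
          · exact Or.inr (hno N hN hb)
        obtain ⟨N, hN, hbot, htop⟩ := hex
        haveI := hN
        have hlt1 : Nat.card N < n := by
          rw [← hn]
          exact lt_of_le_of_ne (Subgroup.card_le_card_group N) (fun h => htop (Subgroup.eq_top_of_card_eq N h))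
        have hd1 : Nat.card N ∣ n := hn ▸ Subgroup.card_subgroup_dvd_card N
        have hs1 : Group.IsSolvable N :=
          ih _ hlt1 N rfl (Odd.of_dvd_nat hodd hd1) (hPO.subgroup N) (hsubpf _ (hn ▸ hd1))
        have hcq : Nat.card (G ⧸ N) * Nat.card N = n := by
          rw [← hn, ← Subgroup.index_eq_card, mul_comm]; exact Subgroup.card_mul_index N
        have hN2 : 2 ≤ Nat.card N := by
          have h1 : Nat.card N ≠ 1 := fun h => hbot (Subgroup.card_eq_one.1 h)
          have h0 : 0 < Nat.card N := Nat.card_pos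
          omega
        have hlt2 : Nat.card (G ⧸ N) < n := by
          have hq : 0 < Nat.card (G ⧸ N) := Nat.card_pos
          nlinarith
        have hd2 : Nat.card (G ⧸ N) ∣ n := ⟨_, hcq.symm⟩
        have hs2 : Group.IsSolvable (G ⧸ N) :=
          ih _ hlt2 (G ⧸ N) rfl (Odd.of_dvd_nat hodd hd2) (hPO.quotient N) (hsubpf _ (hn ▸ hd2))
        exact Group.isSolvable_of_ker_le_range N.subtype (QuotientGroup.mk' N) (by
          intro x hx
          rw [MonoidHom.mem_ker, QuotientGroup.mk'_apply, QuotientGroup.eq_one_iff] at hx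
          exact ⟨⟨x, hx⟩, rfl⟩)

end odd

end Cfsg.Agent.Lib.Nilpotent.PrimeOrder
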