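import Mathlib
import Cfsg.Agent.Lib.Nilpotent.PrimeOrder
import Cfsg.Agent.Lib.Basic.InvolutionPairs
import Cfsg.Agent.Lib.Basic.ConjCount
import Cfsg.Agent.Lib.Frobenius.Even
import Cfsg.Agent.Lib.Coprime.Coset

/-!
# Groups of even order all of whose non-identity elements have prime order

Such a group with non-normal Sylow 2-subgroups acts on its Sylow 2-subgroups as a Zassenhaus group:
every point stabilizer is `T ⋊ F` with `T` regular on the other points, and the group has order
`(h + 1) * h * (h - 1)`.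
-/

set_option autoImplicit false

open Cfsg
open Cfsg.Agent.Lib.Nilpotent.PrimeOrder
open scoped Pointwise

namespace Cfsg.Agent.Lib.Nilpotent.PrimeOrderEven

universe u

variable {G : Type u} [Group G] [Finite G]

local notation "St" => MulAction.stabilizer G

/-- The order of a Sylow 2-subgroup. -/
noncomputable def hh (G : Type u) [Group G] [Finite G] : ℕ := 2 ^ (Nat.card G).factorization 2

theorem card_sylow (a : Sylow 2 G) : Nat.card (a : Subgroup G) = hh G := a.card_eq_multiplicity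

section basics

variable (hPO : PO G)
include hPO

theorem mem_order (a : Sylow 2 G) {x : G} (hx : x ∈ (a : Subgroup G)) (h1 : x ≠ 1) :
    orderOf x = 2 := by
  obtain ⟨k, hk⟩ := Cfsg.Agent.Lib.Basic.SylowUtil.orderOf_eq_pow_of_mem a hx
  have hp := hPO x h1
  rw [hk] at hp ⊢
  have := (Nat.Prime.pow_eq_iff hp).1 rfl
  rw [this.2, pow_one]

theorem sq_eq_one (a : Sylow 2 G) {x : G} (hx : x ∈ (a : Subgroup G)) : x * x = 1 := by
  by_cases h1 : x = 1
  · simp [h1]
  · rw [← pow_two, ← mem_order hPO a hx h1]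
    exact pow_orderOf_eq_one x

theorem comm_of_mem (a : Sylow 2 G) {x y : G} (hx : x ∈ (a : Subgroup G))
    (hy : y ∈ (a : Subgroup G)) : x * y = y * x := by
  have h1 := sq_eq_one hPO a hx
  have h2 := sq_eq_one hPO a hy
  have h3 := sq_eq_one hPO a ((a : Subgroup G).mul_mem hx hy)
  have hxi : x⁻¹ = x := inv_eq_of_mul_eq_one_left h1
  have hyi : y⁻¹ = y := inv_eq_of_mul_eq_one_left h2
  have h4 : (x * y)⁻¹ = x * y := inv_eq_of_mul_eq_one_left h3
  rw [mul_inv_rev, hxi, hyi] at h4
  exact h4.symm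

theorem centralizer_eq (a : Sylow 2 G) {t : G} (ht : t ∈ (a : Subgroup G)) (h1 : t ≠ 1) :
    Subgroup.centralizer ({t} : Set G) = (a : Subgroup G) := by
  have hord := mem_order hPO a ht h1
  have hp : IsPGroup 2 (Subgroup.centralizer ({t} : Set G)) := by
    have := hPO.isPGroup_centralizer h1
    rwa [hord] at this
  apply Cfsg.Agent.Lib.Basic.SylowUtil.eq_of_sylow_le hp a
  intro y hy
  rw [Subgroup.mem_centralizer_singleton_iff]
  exact comm_of_mem hPO a hy ht

theorem eq_of_mem_mem {a b : Sylow 2 G} {t : G} (ha : t ∈ (a : Subgroup G))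
    (hb : t ∈ (b : Subgroup G)) (h1 : t ≠ 1) : a = b := by
  apply Sylow.ext
  rw [← centralizer_eq hPO a ha h1, centralizer_eq hPO b hb h1]

omit hPO in
theorem isPGroup_zpowers_of_order {s : G} (hs : orderOf s = 2) :
    IsPGroup 2 (Subgroup.zpowers s) := by
  apply IsPGroup.of_card (n := 1)
  rw [Nat.card_zpowers, hs, pow_one]

omit hPO in
theorem smul_eq_iff {s : G} (hs : orderOf s = 2) (a : Sylow 2 G) :
    s • a = a ↔ s ∈ (a : Subgroup G) := by
  constructor
  · intro h
    have h1 : (Subgroup.zpowers s : Subgroup G) ≤ (a : Subgroup G) := by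
      rw [← IsPGroup.sylow_mem_fixedPoints_iff (isPGroup_zpowers_of_order hs)]
      rintro ⟨g, hg⟩
      obtain ⟨k, rfl⟩ := Subgroup.mem_zpowers_iff.1 hg
      change (s ^ k) • a = a
      induction k using Int.induction_on with
      | zero => simp
      | succ i ih => rw [zpow_add_one, mul_smul, h]; exact ih (Subgroup.zpow_mem_zpowers s _)
      | pred i ih =>
        rw [zpow_sub_one, mul_smul]
        have : s⁻¹ • a = a := by
          rw [inv_smul_eq_iff, h]
        rw [this]; exact ih (Subgroup.zpow_mem_zpowers s _)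
    exact h1 (Subgroup.mem_zpowers s)
  · intro h
    exact (Sylow.smul_eq_iff_mem_normalizer).2 (Subgroup.le_normalizer h)

omit hPO in
theorem smul_eq_of_mem {x : G} {a : Sylow 2 G} (h : x ∈ (a : Subgroup G)) : x • a = a :=
  (Sylow.smul_eq_iff_mem_normalizer).2 (Subgroup.le_normalizer h)

omit hPO in
theorem exists_mem {s : G} (hs : orderOf s = 2) : ∃ a : Sylow 2 G, s ∈ (a : Subgroup G) :=
  Cfsg.Agent.Lib.Basic.SylowUtil.exists_sylow_of_orderOf (k := 1) (by simpa using hs)

theorem isConj_of_ne {a b : Sylow 2 G} {s t : G} (hs : s ∈ (a : Subgroup G))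
    (ht : t ∈ (b : Subgroup G)) (hs2 : orderOf s = 2) (ht2 : orderOf t = 2) (hab : a ≠ b) :
    IsConj s t := by
  apply Cfsg.Agent.Lib.Basic.InvolutionPairs.isConj_of_odd_orderOf_mul hs2 ht2
  rw [← Nat.not_even_iff_odd]
  intro he
  obtain ⟨z, hz, hzs, hzt⟩ := Cfsg.Agent.Lib.Basic.InvolutionPairs.exists_common_involution hs2 ht2 he
  have hz1 : z ≠ 1 := by
    rintro rfl
    simp at hz
  obtain ⟨c, hc⟩ := exists_mem hz
  have h1 : s ∈ (c : Subgroup G) := by
    rw [← centralizer_eq hPO c hc hz1, Subgroup.mem_centralizer_singleton_iff]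
    exact hzs.symm
  have h2 : t ∈ (c : Subgroup G) := by
    rw [← centralizer_eq hPO c hc hz1, Subgroup.mem_centralizer_singleton_iff]
    exact hzt.symm
  have hs1 : s ≠ 1 := by
    rintro rfl
    simp at hs2
  have ht1 : t ≠ 1 := by
    rintro rfl
    simp at ht2
  exact hab ((eq_of_mem_mem hPO hs h1 hs1).trans (eq_of_mem_mem hPO h2 ht ht1))

/-- If the Sylow 2-subgroups are not normal, all involutions are conjugate. -/
theorem all_conj (hne : ∀ a : Sylow 2 G, ∃ b : Sylow 2 G, b ≠ a) {s t : G} (hs : orderOf s = 2)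
    (ht : orderOf t = 2) : IsConj s t := by
  obtain ⟨a, ha⟩ := exists_mem hs
  obtain ⟨b, hb⟩ := exists_mem ht
  by_cases hab : a = b
  · subst hab
    obtain ⟨c, hc⟩ := hne a
    obtain ⟨g, hg⟩ := MulAction.exists_smul_eq G a c
    have hu : g * s * g⁻¹ ∈ (c : Subgroup G) := by
      rw [← hg, Cfsg.Agent.Lib.Basic.SylowUtil.coe_smul_sylow]
      exact ⟨s, ha, rfl⟩
    have hu2 : orderOf (g * s * g⁻¹) = 2 := by
      rw [← hs]
      exact (Cfsg.Agent.Lib.Basic.ConjCount.orderOf_eq_of_isConj (isConj_iff.2 ⟨g, rfl⟩)).symm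
    exact (isConj_of_ne hPO ha hu hs hu2 hc.symm).trans (isConj_of_ne hPO hu hb hu2 ht hc)
  · exact isConj_of_ne hPO ha hb hs ht hab

end basics

section counting

open Classical

noncomputable local instance fG : Fintype G := Fintype.ofFinite G
noncomputable local instance fS : Fintype (Sylow 2 G) := Fintype.ofFinite _

/-- The involutions of `G`. -/
noncomputable def invs (G : Type u) [Group G] [Finite G] : Finset G :=
  Finset.univ.filter (fun x : G => orderOf x = 2)

/-- The elements of a Sylow subgroup different from `1`. -/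
noncomputable def sharp (a : Sylow 2 G) : Finset G :=
  (Finset.univ.filter (fun x : G => x ∈ (a : Subgroup G))).erase 1

theorem card_sharp (a : Sylow 2 G) : (sharp a).card = hh G - 1 := by
  rw [sharp, Finset.card_erase_of_mem (Finset.mem_filter.2 ⟨Finset.mem_univ _, Subgroup.one_mem _⟩)]
  congr 1
  rw [← card_sylow a, Nat.card_eq_fintype_card, Fintype.card_subtype]

variable (hPO : PO G) (hne : ∀ a : Sylow 2 G, ∃ b : Sylow 2 G, b ≠ a)

include hPO in
theorem sharp_subset_invs (a : Sylow 2 G) : sharp a ⊆ invs G := by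
  intro x hx
  obtain ⟨h1, h2⟩ := Finset.mem_erase.1 hx
  exact Finset.mem_filter.2 ⟨Finset.mem_univ _, mem_order hPO a (Finset.mem_filter.1 h2).2 h1⟩

include hPO in
theorem card_invs_eq : (invs G).card = Nat.card (Sylow 2 G) * (hh G - 1) := by
  have h1 : invs G = (Finset.univ : Finset (Sylow 2 G)).biUnion sharp := by
    ext x
    simp only [Finset.mem_biUnion, Finset.mem_univ, true_and]
    constructor
    · intro hx
      have hx2 := (Finset.mem_filter.1 hx).2
      obtain ⟨a, ha⟩ := exists_mem hx2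
      refine ⟨a, Finset.mem_erase.2 ⟨?_, Finset.mem_filter.2 ⟨Finset.mem_univ _, ha⟩⟩⟩
      rintro rfl
      simp at hx2
    · rintro ⟨a, ha⟩
      exact sharp_subset_invs hPO a ha
  rw [h1, Finset.card_biUnion]
  · rw [Finset.sum_congr rfl (fun a _ => card_sharp a), Finset.sum_const, Finset.card_univ,
      smul_eq_mul, Nat.card_eq_fintype_card]
  · intro a _ b _ hab
    change Disjoint (sharp a) (sharp b)
    rw [Finset.disjoint_left]
    intro x hxa hxb
    obtain ⟨h1, h2⟩ := Finset.mem_erase.1 hxa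
    obtain ⟨_, h3⟩ := Finset.mem_erase.1 hxb
    exact hab (eq_of_mem_mem hPO (Finset.mem_filter.1 h2).2 (Finset.mem_filter.1 h3).2 h1)

include hPO hne in
theorem card_invs_mul {t : G} (ht : orderOf t = 2) : (invs G).card * hh G = Nat.card G := by
  have h1 := Cfsg.Agent.Lib.Basic.ConjCount.card_isConj_mul_card_centralizer t
  obtain ⟨a, ha⟩ := exists_mem ht
  have ht1 : t ≠ 1 := by
    rintro rfl
    simp at ht
  rw [centralizer_eq hPO a ha ht1, card_sylow a] at h1
  rw [← h1]
  congr 1
  rw [Nat.card_eq_fintype_card, Fintype.card_subtype]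
  congr 1
  ext y
  simp only [invs, Finset.mem_filter, Finset.mem_univ, true_and]
  constructor
  · intro hy
    exact all_conj hPO hne ht hy
  · intro hy
    rw [← Cfsg.Agent.Lib.Basic.ConjCount.orderOf_eq_of_isConj hy, ht]

theorem card_sylow_mul_stab (a : Sylow 2 G) : Nat.card (Sylow 2 G) * Nat.card (St a) = Nat.card G := by
  rw [Sylow.stabilizer_eq_normalizer, Sylow.card_eq_index_normalizer a]
  exact Subgroup.index_mul_card _

include hPO hne in
theorem card_stab {t : G} (ht : orderOf t = 2) (a : Sylow 2 G) :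
    Nat.card (St a) = hh G * (hh G - 1) := by
  have h1 := card_invs_mul hPO hne ht
  rw [card_invs_eq hPO] at h1
  have h2 := card_sylow_mul_stab a
  have hm : 0 < Nat.card (Sylow 2 G) := Nat.card_pos
  apply Nat.eq_of_mul_eq_mul_left hm
  rw [h2, ← h1]
  ring

theorem le_stab (a : Sylow 2 G) : (a : Subgroup G) ≤ St a := fun _ hx => smul_eq_of_mem hx

/-- The two-point stabilizer. -/
def KK (a b : Sylow 2 G) : Subgroup G := St a ⊓ St b

theorem mem_KK {a b : Sylow 2 G} {x : G} : x ∈ KK a b ↔ x • a = a ∧ x • b = b := Iff.rfl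

include hPO in
theorem inf_KK {a b : Sylow 2 G} (hab : a ≠ b) : (a : Subgroup G) ⊓ KK a b = ⊥ := by
  rw [eq_bot_iff]
  rintro x ⟨hxa, hxK⟩
  by_contra hx1
  have hx1' : x ≠ 1 := hx1
  have h2 := mem_order hPO a hxa hx1'
  have h3 : x ∈ (b : Subgroup G) := (smul_eq_iff h2 b).1 hxK.2
  exact hab (eq_of_mem_mem hPO hxa h3 hx1')

include hPO hne in
theorem card_KK_le {t : G} (ht : orderOf t = 2) {a b : Sylow 2 G} (hab : a ≠ b) :
    Nat.card (KK a b) ≤ hh G - 1 := by
  have h1 := Cfsg.Agent.Lib.Basic.ProductCard.card_mul_card_le_sup_mul_inf (a : Subgroup G) (KK a b)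
  rw [inf_KK hPO hab, Subgroup.card_bot, mul_one, card_sylow a] at h1
  have h2 : Nat.card ((a : Subgroup G) ⊔ KK a b : Subgroup G) ≤ Nat.card (St a) :=
    Subgroup.card_le_of_le (sup_le (le_stab a) inf_le_left)
  rw [card_stab hPO hne ht a] at h2
  have hpos : 0 < hh G := by
    unfold hh; positivity
  exact Nat.le_of_mul_le_mul_left (h1.trans h2) hpos

/-- The involutions taking `a` to `b`. -/
noncomputable def tt (a b : Sylow 2 G) : Finset G :=
  Finset.univ.filter (fun s : G => orderOf s = 2 ∧ s • a = b)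

theorem mem_tt {a b : Sylow 2 G} {s : G} : s ∈ tt a b ↔ orderOf s = 2 ∧ s • a = b := by
  simp [tt]

theorem mul_self_of_order {s : G} (hs : orderOf s = 2) : s * s = 1 :=
  Cfsg.Agent.Lib.Basic.InvolutionPairs.mul_self_of_orderOf_two hs

theorem smul_swap {a b : Sylow 2 G} {s : G} (hs : s ∈ tt a b) : s • b = a := by
  obtain ⟨h1, h2⟩ := mem_tt.1 hs
  rw [← h2, ← mul_smul, mul_self_of_order h1, one_smul]

theorem card_tt_le (a b : Sylow 2 G) : (tt a b).card ≤ Nat.card (KK a b) := by
  rcases (tt a b).eq_empty_or_nonempty with h | ⟨s0, hs0⟩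
  · rw [h]; simp
  · have hcard : Nat.card (KK a b) = (Finset.univ.filter (fun x : G => x ∈ KK a b)).card := by
      rw [Nat.card_eq_fintype_card, Fintype.card_subtype]
    rw [hcard]
    apply Finset.card_le_card_of_injOn (fun s => s0 * s)
    · intro s hs
      obtain ⟨h1, h2⟩ := mem_tt.1 hs
      refine Finset.mem_coe.2 (Finset.mem_filter.2 ⟨Finset.mem_univ _, ?_, ?_⟩)
      · change (s0 * s) • a = a
        rw [mul_smul, h2, smul_swap hs0]
      · change (s0 * s) • b = b
        rw [mul_smul, smul_swap hs, (mem_tt.1 hs0).2]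
    · intro x _ y _ hxy
      exact mul_left_cancel hxy

include hPO in
/-- Counting: the involutions outside `a`. -/
theorem sum_card_tt (a : Sylow 2 G) :
    ∑ b ∈ Finset.univ.erase a, (tt a b).card = (Nat.card (Sylow 2 G) - 1) * (hh G - 1) := by
  set Sa : Finset G := (invs G) \ sharp a with hSa
  have hcardS : Sa.card = (Nat.card (Sylow 2 G) - 1) * (hh G - 1) := by
    rw [hSa, Finset.card_sdiff_of_subset (sharp_subset_invs hPO a), card_invs_eq hPO, card_sharp,
      Nat.sub_mul, one_mul]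
  rw [← hcardS]
  rw [Finset.card_eq_sum_card_fiberwise (f := fun s => s • a) (t := Finset.univ.erase a)]
  · refine Finset.sum_congr rfl fun b hb => ?_
    congr 1
    ext s
    have hba : b ≠ a := (Finset.mem_erase.1 hb).1
    simp only [Finset.mem_filter, mem_tt, hSa, Finset.mem_sdiff, invs, Finset.mem_univ, true_and]
    constructor
    · rintro ⟨h1, h2⟩
      refine ⟨⟨h1, ?_⟩, h2⟩
      intro h3
      have h4 : s ∈ (a : Subgroup G) := (Finset.mem_filter.1 (Finset.mem_erase.1 h3).2).2
      rw [smul_eq_of_mem h4] at h2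
      exact hba h2.symm
    · rintro ⟨⟨h1, -⟩, h2⟩
      exact ⟨h1, h2⟩
  · intro s hs
    have hs' := Finset.mem_sdiff.1 (Finset.mem_coe.1 hs)
    have h2 := (Finset.mem_filter.1 hs'.1).2
    refine Finset.mem_coe.2 (Finset.mem_erase.2 ⟨?_, Finset.mem_univ _⟩)
    intro h3
    have h4 := (smul_eq_iff h2 a).1 h3
    apply hs'.2
    refine Finset.mem_erase.2 ⟨?_, Finset.mem_filter.2 ⟨Finset.mem_univ _, h4⟩⟩
    rintro rfl
    simp at h2

include hPO hne in
theorem card_tt {t : G} (ht : orderOf t = 2) {a b : Sylow 2 G} (hab : a ≠ b) :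
    (tt a b).card = hh G - 1 := by
  have h1 := sum_card_tt hPO a
  have hle : ∀ c ∈ Finset.univ.erase a, (tt a c).card ≤ hh G - 1 := fun c hc =>
    (card_tt_le a c).trans (card_KK_le hPO hne ht (Finset.mem_erase.1 hc).1.symm)
  have h2 : ∑ c ∈ Finset.univ.erase a, (hh G - 1) = (Nat.card (Sylow 2 G) - 1) * (hh G - 1) := by
    rw [Finset.sum_const, Finset.card_erase_of_mem (Finset.mem_univ _), Finset.card_univ, smul_eq_mul,
      Nat.card_eq_fintype_card]
  exact (Finset.sum_eq_sum_iff_of_le hle).1 (h1.trans h2.symm) b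
    (Finset.mem_erase.2 ⟨hab.symm, Finset.mem_univ _⟩)

include hPO hne in
theorem card_KK {t : G} (ht : orderOf t = 2) {a b : Sylow 2 G} (hab : a ≠ b) :
    Nat.card (KK a b) = hh G - 1 :=
  le_antisymm (card_KK_le hPO hne ht hab) (by
    rw [← card_tt hPO hne ht hab]; exact card_tt_le a b)

include hPO in
theorem no_involution_KK {a b : Sylow 2 G} (hab : a ≠ b) {k : G} (hk : k ∈ KK a b) (h2 : k * k = 1) :
    k = 1 := by
  by_contra hk1
  have hord : orderOf k = 2 := by
    apply orderOf_eq_prime (by rw [pow_two]; exact h2) hk1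
  have h3 : k ∈ (a : Subgroup G) := (smul_eq_iff hord a).1 hk.1
  have h4 : k ∈ (b : Subgroup G) := (smul_eq_iff hord b).1 hk.2
  exact hab (eq_of_mem_mem hPO h3 h4 hk1)

include hPO in
/-- An involution interchanging `a, b` inverts the two-point stabilizer. -/
theorem inverts {a b : Sylow 2 G} (hab : a ≠ b) {s k : G} (hs : s ∈ tt a b) (hk : k ∈ KK a b) :
    s * k * s⁻¹ = k⁻¹ := by
  obtain ⟨hs2, hsa⟩ := mem_tt.1 hs
  have hsb := smul_swap hs
  have hsinv : s⁻¹ = s := Cfsg.Agent.Lib.Basic.InvolutionPairs.inv_eq_of_orderOf_two hs2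
  have hconj : ∀ x ∈ KK a b, s * x * s⁻¹ ∈ KK a b := by
    intro x hx
    rw [hsinv]
    constructor
    · change (s * x * s) • a = a
      rw [mul_smul, mul_smul, hsa, hx.2, hsb]
    · change (s * x * s) • b = b
      rw [mul_smul, mul_smul, hsb, hx.1, hsa]
  have hnorm : s ∈ Subgroup.normalizer ((KK a b : Subgroup G) : Set G) := by
    rw [Subgroup.mem_normalizer_iff]
    intro x
    constructor
    · exact hconj x
    · intro hx
      have := hconj _ hx
      rw [hsinv] at this
      have h5 : s * (s * x * s) * s = x := by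
        calc s * (s * x * s) * s = (s * s) * x * (s * s) := by group
          _ = x := by rw [mul_self_of_order hs2]; group
      rwa [h5] at this
  refine Cfsg.Agent.Lib.Frobenius.Even.inverts_of_fpf_involution hnorm (mul_self_of_order hs2) ?_ hk
  intro x hx hcomm
  by_contra hx1
  have hs1 : s ≠ 1 := by
    rintro rfl
    simp at hs2
  have hord : orderOf x = 2 := by
    rw [← hs2]
    exact (hPO.orderOf_eq_of_commute hs1 hx1 hcomm).symm
  exact hx1 (no_involution_KK hPO hab hx (mul_self_of_order hord))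

include hPO in
theorem comm_KK {a b : Sylow 2 G} (hab : a ≠ b) {s : G} (hs : s ∈ tt a b) {x y : G}
    (hx : x ∈ KK a b) (hy : y ∈ KK a b) : x * y = y * x := by
  have h1 := inverts hPO hab hs ((KK a b).mul_mem hx hy)
  have h2 := inverts hPO hab hs hx
  have h3 := inverts hPO hab hs hy
  have h4 : s * (x * y) * s⁻¹ = (s * x * s⁻¹) * (s * y * s⁻¹) := by group
  rw [h4, h2, h3, mul_inv_rev] at h1
  have h5 : (x⁻¹ * y⁻¹)⁻¹ = (y⁻¹ * x⁻¹)⁻¹ := by rw [h1]
  simpa using h5.symm


variable {t : G} (ht : orderOf t = 2) (hh2 : 2 < hh G)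

include hPO hne ht hh2 in
theorem tt_nonempty {a b : Sylow 2 G} (hab : a ≠ b) : (tt a b).Nonempty := by
  rw [← Finset.card_pos, card_tt hPO hne ht hab]
  omega

include hPO hne ht in
theorem eq_KK_of_le {a b c : Sylow 2 G} (hab : a ≠ b) (hac : a ≠ c) (h : KK a b ≤ St c) :
    KK a b = KK a c := by
  apply Subgroup.eq_of_le_of_card_ge (le_inf inf_le_left h)
  change Nat.card (KK a c) ≤ Nat.card (KK a b)
  rw [card_KK hPO hne ht hab, card_KK hPO hne ht hac]

include hPO hne ht in
theorem sup_KK_eq {a b : Sylow 2 G} (hab : a ≠ b) : (a : Subgroup G) ⊔ KK a b = St a := by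
  apply Subgroup.eq_of_le_of_card_ge (sup_le (le_stab a) inf_le_left)
  have h1 := Cfsg.Agent.Lib.Basic.ProductCard.card_mul_card_le_sup_mul_inf (a : Subgroup G) (KK a b)
  rw [inf_KK hPO hab, Subgroup.card_bot, mul_one, card_sylow a, card_KK hPO hne ht hab] at h1
  rw [card_stab hPO hne ht a]
  exact h1

include hPO hne ht in
theorem exists_factor {a b : Sylow 2 G} (hab : a ≠ b) {x : G} (hx : x ∈ St a) :
    ∃ u ∈ (a : Subgroup G), ∃ k ∈ KK a b, x = u * k := by
  have h1 := Cfsg.Agent.Lib.Basic.ProductCard.mul_eq_sup_of_card_eq (a : Subgroup G) (KK a b) (by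
    rw [inf_KK hPO hab, Subgroup.card_bot, mul_one, sup_KK_eq hPO hne ht hab, card_sylow a,
      card_KK hPO hne ht hab, card_stab hPO hne ht a])
  have h2 : x ∈ ((a : Subgroup G) ⊔ KK a b : Subgroup G) := by
    rw [sup_KK_eq hPO hne ht hab]; exact hx
  have h3 : x ∈ (((a : Subgroup G) : Set G) * (KK a b : Set G)) := by
    rw [h1]; exact h2
  obtain ⟨u, hu, k, hk, rfl⟩ := Set.mem_mul.1 h3
  exact ⟨u, hu, k, hk, rfl⟩

include hPO hne ht hh2 in
/-- The two-point stabilizer fixes exactly two points. -/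
theorem fix_KK {a b c : Sylow 2 G} (hab : a ≠ b) (h : KK a b ≤ St c) : c = a ∨ c = b := by
  by_contra hcon
  push_neg at hcon
  obtain ⟨hca, hcb⟩ := hcon
  have hK1 : KK a b = KK a c := eq_KK_of_le hPO hne ht hab hca.symm h
  obtain ⟨s1, hs1⟩ := tt_nonempty hPO hne ht hh2 hab
  obtain ⟨s2, hs2⟩ := tt_nonempty hPO hne ht hh2 hca.symm
  set z := s2 * s1 with hz
  have hd : s2 • b ≠ a := by
    intro h1
    have h2 : s2 • a = b := by
      rw [← h1, ← mul_smul, mul_self_of_order (mem_tt.1 hs2).1, one_smul]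
    rw [(mem_tt.1 hs2).2] at h2
    exact hcb h2
  have hza : z • a = s2 • b := by
    rw [hz, mul_smul, (mem_tt.1 hs1).2]
  have hzk : ∀ k ∈ KK a b, z * k = k * z := by
    intro k hk
    have h1 := inverts hPO hab hs1 hk
    have h2 := inverts hPO hca.symm hs2 (hK1 ▸ (KK a b).inv_mem hk)
    rw [inv_inv] at h2
    calc z * k = s2 * (s1 * k * s1⁻¹) * s2⁻¹ * (s2 * s1) := by rw [hz]; group
      _ = (s2 * k⁻¹ * s2⁻¹) * (s2 * s1) := by rw [h1]
      _ = k * z := by rw [h2]
  have hKd : KK a b ≤ St (s2 • b) := by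
    intro k hk
    change k • (s2 • b) = s2 • b
    rw [← hza, ← mul_smul, ← hzk k hk, mul_smul, hk.1]
  have hK2 : KK a b = KK a (s2 • b) := eq_KK_of_le hPO hne ht hab hd.symm hKd
  obtain ⟨s3, hs3⟩ := tt_nonempty hPO hne ht hh2 hd.symm
  have hxa : (s3 * z) ∈ St a := by
    change (s3 * z) • a = a
    rw [mul_smul, hza, smul_swap hs3]
  obtain ⟨u, hu, k', hk', hx⟩ := exists_factor hPO hne ht hab hxa
  have hy : ∀ y ∈ KK a b, y = 1 := by
    intro y hy
    have h3 := inverts hPO hd.symm hs3 (hK2 ▸ hy)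
    have h4 : (s3 * z) * y * (s3 * z)⁻¹ = y⁻¹ := by
      calc (s3 * z) * y * (s3 * z)⁻¹ = s3 * (z * y) * z⁻¹ * s3⁻¹ := by group
        _ = s3 * (y * z) * z⁻¹ * s3⁻¹ := by rw [hzk y hy]
        _ = s3 * y * s3⁻¹ := by group
        _ = y⁻¹ := h3
    rw [hx] at h4
    have h5 : k' * y = y * k' := comm_KK hPO hab hs1 hk' hy
    have h6 : u * y * u⁻¹ = y⁻¹ := by
      calc u * y * u⁻¹ = (u * k') * y * (u * k')⁻¹ := by
            calc u * y * u⁻¹ = u * (y * k') * k'⁻¹ * u⁻¹ := by group
              _ = u * (k' * y) * k'⁻¹ * u⁻¹ := by rw [h5]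
              _ = _ := by group
        _ = y⁻¹ := h4
    have h7 : y * u⁻¹ * y⁻¹ ∈ (a : Subgroup G) := by
      have hya : y • a = a := hy.1
      have h8 : u⁻¹ ∈ ((y • a : Sylow 2 G) : Subgroup G) → y * u⁻¹ * y⁻¹ ∈ (a : Subgroup G) := fun _ => by
        have h9 : y * u⁻¹ * y⁻¹ ∈ ((y • a : Sylow 2 G) : Subgroup G) := by
          rw [Cfsg.Agent.Lib.Basic.SylowUtil.coe_smul_sylow]
          exact ⟨u⁻¹, (a : Subgroup G).inv_mem hu, rfl⟩
        rwa [hya] at h9
      exact h8 (by rw [hya]; exact (a : Subgroup G).inv_mem hu)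
    have h10 : y⁻¹ * y⁻¹ ∈ (a : Subgroup G) := by
      have : y⁻¹ * y⁻¹ = u * (y * u⁻¹ * y⁻¹) := by
        calc y⁻¹ * y⁻¹ = (u * y * u⁻¹) * y⁻¹ := by rw [h6]
          _ = _ := by group
      rw [this]
      exact (a : Subgroup G).mul_mem hu h7
    have h11 : y⁻¹ * y⁻¹ ∈ KK a b := (KK a b).mul_mem ((KK a b).inv_mem hy) ((KK a b).inv_mem hy)
    have h12 : y⁻¹ * y⁻¹ = 1 := by
      have : y⁻¹ * y⁻¹ ∈ (a : Subgroup G) ⊓ KK a b := ⟨h10, h11⟩
      rw [inf_KK hPO hab] at this
      simpa using this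
    have h13 := no_involution_KK hPO hab ((KK a b).inv_mem hy) h12
    simpa using h13
  have hbot : KK a b = ⊥ := by
    rw [eq_bot_iff]
    intro y hyK
    simpa using hy y hyK
  have h14 := card_KK hPO hne ht hab
  rw [hbot, Subgroup.card_bot] at h14
  omega

include hPO hne ht hh2 in
/-- The Sylow subgroup `a` is transitive on the other Sylow subgroups. -/
theorem exists_trans {a b c : Sylow 2 G} (hab : a ≠ b) (hac : a ≠ c) :
    ∃ u ∈ (a : Subgroup G), u • b = c := by
  have hnorm : KK a b ≤ Subgroup.normalizer ((a : Subgroup G) : Set G) := by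
    intro x hx
    exact Sylow.smul_eq_iff_mem_normalizer.1 hx.1
  have hcop : (Nat.card (KK a b)).Coprime (Nat.card (a : Subgroup G)) := by
    rw [card_KK hPO hne ht hab, card_sylow a]
    have hpos : 0 < hh G := by unfold hh; positivity
    have : (hh G - 1).Coprime (hh G - 1 + 1) := by simp
    rwa [Nat.sub_add_cancel hpos] at this
  have hsol : Group.IsSolvable (a : Subgroup G) := by
    have : Group.IsNilpotent (a : Subgroup G) := a.isPGroup'.isNilpotent
    infer_instance
  obtain ⟨u, hu, hmap⟩ := Cfsg.Agent.Lib.Coprime.Coset.exists_conj_eq_of_card_eq hnorm hcop (Or.inr hsol)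
    (A' := KK a c) (by rw [sup_KK_eq hPO hne ht hab]; exact inf_le_left) (by
      rw [card_KK hPO hne ht hab, card_KK hPO hne ht hac])
  refine ⟨u, hu, ?_⟩
  have hle : KK a c ≤ St (u • b) := by
    intro k hk
    rw [← hmap] at hk
    obtain ⟨k0, hk0, rfl⟩ := hk
    change (u * k0 * u⁻¹) • (u • b) = u • b
    rw [← mul_smul]
    have : u * k0 * u⁻¹ * u = u * k0 := by group
    rw [this, mul_smul, hk0.2]
  rcases fix_KK hPO hne ht hh2 hac hle with h | h
  · exfalso
    apply hab
    have h1 : u • a = a := smul_eq_of_mem hu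
    exact (smul_left_cancel u (h.trans h1.symm)).symm
  · exact h

include hPO in
theorem eq_one_of_fix {a b : Sylow 2 G} (hab : a ≠ b) {u : G} (hu : u ∈ (a : Subgroup G))
    (h : u • b = b) : u = 1 := by
  by_contra hu1
  have h2 := mem_order hPO a hu hu1
  exact hab (eq_of_mem_mem hPO hu ((smul_eq_iff h2 b).1 h) hu1)

include hPO hne ht hh2 in
/-- The number of Sylow 2-subgroups. -/
theorem card_sylow_eq : Nat.card (Sylow 2 G) = hh G + 1 := by
  obtain ⟨a, ha⟩ := exists_mem ht
  obtain ⟨b, hb⟩ := hne a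
  have hab : a ≠ b := hb.symm
  have hbij : Function.Bijective (fun u : (a : Subgroup G) =>
      (⟨(u : G) • b, by
        intro h
        have h1 : (u : G) • a = a := smul_eq_of_mem u.2
        exact hab (smul_left_cancel (u : G) (h.trans h1.symm)).symm⟩ : {c : Sylow 2 G // c ≠ a})) := by
    constructor
    · intro u v huv
      have h1 : (u : G) • b = (v : G) • b := congrArg Subtype.val huv
      have h2 : ((v : G)⁻¹ * u) • b = b := by
        rw [mul_smul, h1, ← mul_smul, inv_mul_cancel, one_smul]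
      have h3 := eq_one_of_fix hPO hab ((a : Subgroup G).mul_mem ((a : Subgroup G).inv_mem v.2) u.2) h2
      apply Subtype.ext
      rw [inv_mul_eq_one] at h3
      exact h3.symm
    · rintro ⟨c, hc⟩
      obtain ⟨u, hu, huc⟩ := exists_trans hPO hne ht hh2 hab hc.symm
      exact ⟨⟨u, hu⟩, Subtype.ext huc⟩
  have h1 := Nat.card_congr (Equiv.ofBijective _ hbij)
  rw [card_sylow a] at h1
  have h2 : Nat.card {c : Sylow 2 G // c ≠ a} = Nat.card (Sylow 2 G) - 1 := by
    rw [Nat.card_eq_fintype_card, Fintype.card_subtype_compl, Nat.card_eq_fintype_card]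
    simp
  have hm : 0 < Nat.card (Sylow 2 G) := Nat.card_pos
  omega

include hPO hne ht hh2 in
/-- The order of the group. -/
theorem card_eq : Nat.card G = (hh G + 1) * (hh G * (hh G - 1)) := by
  obtain ⟨a, -⟩ := exists_mem ht
  rw [← card_sylow_mul_stab a, card_sylow_eq hPO hne ht hh2, card_stab hPO hne ht a]

end counting

end Cfsg.Agent.Lib.Nilpotent.PrimeOrderEven
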