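import Mathlib
import Cfsg.Agent.Lib.Nilpotent.PrimeOrderEven

/-!
# A non-solvable group with all non-identity elements of prime order and exactly three primes is `A₅`
-/

set_option autoImplicit false

open Cfsg
open Cfsg.Agent.Lib.Nilpotent.PrimeOrder
open Cfsg.Agent.Lib.Nilpotent.PrimeOrderEven
open scoped Pointwise

namespace Cfsg.Agent.Lib.Nilpotent.PrimeOrderMain

universe u

/-- `2^n - 1` and `2^n + 1` are both prime powers only for `n = 2, 3` (`n ≥ 2`). -/
theorem numeric {n : ℕ} (hn : 2 ≤ n) (h1 : IsPrimePow (2 ^ n - 1)) (h2 : IsPrimePow (2 ^ n + 1)) :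
    n = 2 ∨ n = 3 := by
  rcases Nat.even_or_odd n with he | ho
  · obtain ⟨k, rfl⟩ := he
    by_cases hk : k = 1
    · left; omega
    · exfalso
      have hk2 : 2 ≤ k := by omega
      obtain ⟨q, d, hq, hd, heq⟩ := h1
      have hq' : q.Prime := hq.nat_prime
      have h4 : 4 ≤ 2 ^ k := by
        calc 4 = 2 ^ 2 := by norm_num
          _ ≤ 2 ^ k := Nat.pow_le_pow_right (by norm_num) hk2
      have hfac : 2 ^ (k + k) - 1 = (2 ^ k - 1) * (2 ^ k + 1) := by
        rw [pow_add]
        obtain ⟨m, hm⟩ : ∃ m, 2 ^ k = m + 1 := ⟨2 ^ k - 1, by omega⟩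
        rw [hm]
        simp only [Nat.add_sub_cancel]
        have : (m + 1) * (m + 1) - 1 = m * (m + 1 + 1) := by
          have h5 : (m + 1) * (m + 1) = m * (m + 1 + 1) + 1 := by ring
          omega
        exact this
      have hd1 : 2 ^ k - 1 ∣ q ^ d := by rw [heq, hfac]; exact dvd_mul_right _ _
      have hd2 : 2 ^ k + 1 ∣ q ^ d := by rw [heq, hfac]; exact dvd_mul_left _ _
      obtain ⟨i, -, hi⟩ := (Nat.dvd_prime_pow hq').1 hd1
      obtain ⟨j, -, hj⟩ := (Nat.dvd_prime_pow hq').1 hd2
      have hi0 : i ≠ 0 := by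
        rintro rfl
        rw [pow_zero] at hi
        omega
      have hj0 : j ≠ 0 := by
        rintro rfl
        rw [pow_zero] at hj
        omega
      have hq1 : q ∣ 2 ^ k - 1 := by rw [hi]; exact dvd_pow_self q hi0
      have hq2 : q ∣ 2 ^ k + 1 := by rw [hj]; exact dvd_pow_self q hj0
      have hq3 : q ∣ 2 := by
        have : 2 = (2 ^ k + 1) - (2 ^ k - 1) := by omega
        rw [this]
        exact Nat.dvd_sub hq2 hq1
      have hq4 : q = 2 := (Nat.prime_dvd_prime_iff_eq hq' Nat.prime_two).1 hq3
      rw [hq4] at hq1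
      have h6 : 2 ∣ 2 ^ k := dvd_pow_self 2 (by omega)
      omega
  · right
    have hn3 : 3 ≤ n := by
      obtain ⟨m, hm⟩ := ho
      omega
    obtain ⟨r, e, hr, he, heq⟩ := h2
    have hr' : r.Prime := hr.nat_prime
    have h3d : 3 ∣ 2 ^ n + 1 := by
      have := Odd.nat_add_dvd_pow_add_pow 2 1 ho
      simpa using this
    have hr3 : r = 3 := by
      rw [← heq] at h3d
      exact ((Nat.prime_dvd_prime_iff_eq Nat.prime_three hr').1 (Nat.prime_three.dvd_of_dvd_pow h3d)).symm
    subst hr3
    -- `3^e = 2^n + 1`
    have h8 : 8 ∣ 2 ^ n := by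
      have : (2:ℕ) ^ 3 ∣ 2 ^ n := pow_dvd_pow 2 hn3
      simpa using this
    have hmod : 3 ^ e % 8 = 1 := by
      rw [heq]
      omega
    have hmod2 : ∀ w : ℕ, 3 ^ (2 * w) % 8 = 1 ∧ 3 ^ (2 * w + 1) % 8 = 3 := by
      intro w
      induction w with
      | zero => norm_num
      | succ w ih =>
        constructor
        · rw [show 2 * (w + 1) = 2 * w + 2 by ring, pow_add]
          norm_num [Nat.mul_mod, ih.1]
        · rw [show 2 * (w + 1) + 1 = (2 * w + 1) + 2 by ring, pow_add]
          norm_num [Nat.mul_mod, ih.2]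
    rcases Nat.even_or_odd' e with ⟨w, hw | hw⟩
    · subst hw
      have hw0 : w ≠ 0 := by
        rintro rfl
        simp at he
      have h33 : 3 ≤ 3 ^ w := by
        calc 3 = 3 ^ 1 := by norm_num
          _ ≤ 3 ^ w := Nat.pow_le_pow_right (by norm_num) (by omega)
      have hfac : 2 ^ n = (3 ^ w - 1) * (3 ^ w + 1) := by
        have h5 : 3 ^ (2 * w) = 3 ^ w * 3 ^ w := by rw [two_mul, pow_add]
        obtain ⟨m, hm⟩ : ∃ m, 3 ^ w = m + 1 := ⟨3 ^ w - 1, by omega⟩
        rw [h5, hm] at heq
        rw [hm]
        simp only [Nat.add_sub_cancel]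
        have : (m + 1) * (m + 1) = m * (m + 1 + 1) + 1 := by ring
        omega
      obtain ⟨u, -, hu⟩ := (Nat.dvd_prime_pow Nat.prime_two).1 (⟨_, hfac⟩ : 3 ^ w - 1 ∣ 2 ^ n)
      obtain ⟨v, -, hv⟩ := (Nat.dvd_prime_pow Nat.prime_two).1 (⟨_, by rw [hfac, mul_comm]⟩ : 3 ^ w + 1 ∣ 2 ^ n)
      have hdiff : 2 ^ v = 2 ^ u + 2 := by omega
      have hu1 : u = 1 := by
        by_contra hu1
        rcases Nat.lt_or_ge u 1 with h | h
        · have : u = 0 := by omega
          subst this
          simp at hu
          omega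
        · have hu2 : 2 ≤ u := by omega
          have h41 : 4 ∣ 2 ^ u := by
            have : (2:ℕ) ^ 2 ∣ 2 ^ u := pow_dvd_pow 2 hu2
            simpa using this
          have hv2 : 2 ≤ v := by
            by_contra hv2
            have : v = 0 ∨ v = 1 := by omega
            rcases this with rfl | rfl <;> simp at hdiff <;> omega
          have h42 : 4 ∣ 2 ^ v := by
            have : (2:ℕ) ^ 2 ∣ 2 ^ v := pow_dvd_pow 2 hv2
            simpa using this
          omega
      subst hu1
      have h31 : 3 ^ w = 3 := by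
        simp at hu
        omega
      rw [h31] at hfac
      have : (2:ℕ) ^ n = 2 ^ 3 := by rw [hfac]; norm_num
      exact Nat.pow_right_injective (le_refl 2) this
    · subst hw
      have := (hmod2 w).2
      omega

/-- A finite group with at most two primes dividing its order is solvable. -/
theorem three_le_primeFactors {G : Type u} [Group G] [Finite G] (hns : ¬ Group.IsSolvable G) :
    3 ≤ (Nat.card G).primeFactors.card := by
  by_contra hlt
  push_neg at hlt
  apply hns
  set N := Nat.card G with hN
  have hNpos : 0 < N := Nat.card_pos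
  have hpf : N.primeFactors.card = 0 ∨ N.primeFactors.card = 1 ∨ N.primeFactors.card = 2 := by omega
  have hprod : N = ∏ p ∈ N.primeFactors, p ^ N.factorization p := by
    conv_lhs => rw [← Nat.factorization_prod_pow_eq_self hNpos.ne']
    rfl
  rcases hpf with h0 | h1 | h2
  · rw [Finset.card_eq_zero] at h0
    rw [h0, Finset.prod_empty] at hprod
    exact @Cfsg.Agent.Lib.Char.Burnside2.isSolvable_of_card_eq 3 5 (by norm_num) (by norm_num) N G _ _ 0 0 rfl (by simp only [pow_zero, mul_one]; exact hprod)
  · obtain ⟨p, hp⟩ := Finset.card_eq_one.1 h1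
    rw [hp, Finset.prod_singleton] at hprod
    have hpp : p.Prime := Nat.prime_of_mem_primeFactors (by rw [hp]; simp)
    have : ∃ q : ℕ, q.Prime ∧ q ≠ p := ⟨if p = 2 then 3 else 2, by split_ifs <;> norm_num, by
      split_ifs with h <;> omega⟩
    obtain ⟨q, hq, -⟩ := this
    exact Cfsg.Agent.Lib.Char.Burnside2.isSolvable_of_card_eq hpp hq N G _ 0 rfl (by simp only [pow_zero, mul_one]; exact hprod)
  · obtain ⟨p, q, hne, hpq⟩ := Finset.card_eq_two.1 h2
    rw [hpq, Finset.prod_pair hne] at hprod
    have hpp : p.Prime := Nat.prime_of_mem_primeFactors (by rw [hpq]; simp)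
    have hqp : q.Prime := Nat.prime_of_mem_primeFactors (by rw [hpq]; simp)
    exact Cfsg.Agent.Lib.Char.Burnside2.isSolvable_of_card_eq hpp hqp N G _ _ rfl hprod

section final

variable {G : Type u} [Group G] [Finite G]

open Classical

noncomputable local instance fS' : Fintype (Sylow 2 G) := Fintype.ofFinite _

local notation "St" => MulAction.stabilizer G

variable (hPO : PO G) (hne : ∀ a : Sylow 2 G, ∃ b : Sylow 2 G, b ≠ a)
  {t : G} (ht : orderOf t = 2)

include hPO hne ht in
/-- The case `h = 8` does not occur. -/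
theorem false_of_eight (h8 : hh G = 8) : False := by
  have hh2 : 2 < hh G := by omega
  have hm : Nat.card (Sylow 2 G) = 9 := by rw [card_sylow_eq hPO hne ht hh2, h8]
  have hcard : Nat.card G = 504 := by rw [card_eq hPO hne ht hh2, h8]
  have hmF : Fintype.card (Sylow 2 G) = 9 := by rw [← Nat.card_eq_fintype_card, hm]
  obtain ⟨a, ha⟩ := exists_mem ht
  obtain ⟨b, hb⟩ := hne a
  have hab : a ≠ b := hb.symm
  -- an involution in b
  have hbne : (b : Subgroup G) ≠ ⊥ := by
    intro h
    have := card_sylow b
    rw [h, Subgroup.card_bot, h8] at this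
    omega
  obtain ⟨s, hsb, hs1⟩ : ∃ s ∈ (b : Subgroup G), s ≠ 1 := by
    obtain ⟨x, hx⟩ := Subgroup.ne_bot_iff_exists_ne_one.1 hbne
    exact ⟨x, x.2, fun h => hx (Subtype.ext h)⟩
  have hs2 : orderOf s = 2 := mem_order hPO b hsb hs1
  have hsa : s ∉ (a : Subgroup G) := fun h => hab (eq_of_mem_mem hPO h hsb hs1)
  set c := s • a with hc
  have hca : c ≠ a := fun h => hsa ((smul_eq_iff hs2 a).1 h)
  have hsc : s • c = a := by
    rw [hc, ← mul_smul, mul_self_of_order hs2, one_smul]
  have hsbb : s • b = b := (smul_eq_iff hs2 b).2 hsb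
  have hcb : c ≠ b := by
    intro h
    rw [h, hsbb] at hsc
    exact hab hsc.symm
  -- the points other than a, b, c
  set Om : Finset (Sylow 2 G) := Finset.univ \ {a, b, c} with hOm
  have hOmcard : Om.card = 6 := by
    rw [hOm, Finset.card_sdiff_of_subset (Finset.subset_univ _), Finset.card_univ, hmF]
    have : ({a, b, c} : Finset (Sylow 2 G)).card = 3 :=
      Finset.card_eq_three.2 ⟨a, b, c, hab, hca.symm, hcb.symm, rfl⟩
    rw [this]
  let D : G → Finset (Sylow 2 G) := fun u => Om.filter (fun d => u • d = s • d)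
  have hdisj : ∀ u ∈ (a : Subgroup G), ∀ v ∈ (a : Subgroup G), u ≠ v → Disjoint (D u) (D v) := by
    intro u hu v hv huv
    rw [Finset.disjoint_left]
    intro d hdu hdv
    obtain ⟨hd1, hd2⟩ := Finset.mem_filter.1 hdu
    obtain ⟨-, hd3⟩ := Finset.mem_filter.1 hdv
    have hda : a ≠ d := by
      rintro rfl
      have := (Finset.mem_sdiff.1 hd1).2
      simp at this
    have h1 : (v⁻¹ * u) • d = d := by
      rw [mul_smul, hd2, ← hd3, ← mul_smul, inv_mul_cancel, one_smul]
    have h2 := eq_one_of_fix hPO hda ((a : Subgroup G).mul_mem ((a : Subgroup G).inv_mem hv) hu) h1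
    rw [inv_mul_eq_one] at h2
    exact huv h2.symm
  have hx_ne : ∀ u ∈ (a : Subgroup G), s * u ≠ 1 := by
    intro u hu h
    have : s = u⁻¹ := eq_inv_of_mul_eq_one_left h
    rw [this] at hsa
    exact hsa ((a : Subgroup G).inv_mem hu)
  -- orders
  have horder : ∀ u ∈ (a : Subgroup G), u ≠ 1 → orderOf (s * u) = 7 ∨ u • c = b := by
    intro u hu hu1
    have hup := hPO _ (hx_ne u hu)
    have hu2 : orderOf u = 2 := mem_order hPO a hu hu1
    have hdvd : orderOf (s * u) ∣ 504 := hcard ▸ orderOf_dvd_natCard _
    have h3 : orderOf (s * u) = 2 ∨ orderOf (s * u) = 3 ∨ orderOf (s * u) = 7 := by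
      have h504 : (504 : ℕ) = 2 ^ 3 * (3 ^ 2 * 7) := by norm_num
      rw [h504] at hdvd
      rcases (Nat.Prime.dvd_mul hup).1 hdvd with h | h
      · left; exact (Nat.prime_dvd_prime_iff_eq hup Nat.prime_two).1 (hup.dvd_of_dvd_pow h)
      · rcases (Nat.Prime.dvd_mul hup).1 h with h | h
        · right; left; exact (Nat.prime_dvd_prime_iff_eq hup Nat.prime_three).1 (hup.dvd_of_dvd_pow h)
        · right; right; exact (Nat.prime_dvd_prime_iff_eq hup (by norm_num)).1 h
    have hsinv : s⁻¹ = s := Cfsg.Agent.Lib.Basic.InvolutionPairs.inv_eq_of_orderOf_two hs2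
    have huinv : u⁻¹ = u := Cfsg.Agent.Lib.Basic.InvolutionPairs.inv_eq_of_orderOf_two hu2
    rcases h3 with h | h | h
    · exfalso
      have h4 : (s * u) * (s * u) = 1 := mul_self_of_order h
      have h5 : s * u = u * s := by
        have h6 : (s * u)⁻¹ = s * u := inv_eq_of_mul_eq_one_left h4
        rw [mul_inv_rev, hsinv, huinv] at h6
        exact h6.symm
      have h7 : u ∈ Subgroup.centralizer ({s} : Set G) := Subgroup.mem_centralizer_singleton_iff.2 h5.symm
      rw [centralizer_eq hPO b hsb hs1] at h7
      exact hab (eq_of_mem_mem hPO hu h7 hu1)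
    · right
      have h4 : (s * u) ^ 3 = 1 := by rw [← h]; exact pow_orderOf_eq_one _
      have h5 : s * u * s = u * s * u := by
        have h6 : s * u * s * (u * s * u) = 1 := by
          have : s * u * s * (u * s * u) = (s * u) ^ 3 := by
            rw [pow_succ, pow_two]; group
          rw [this, h4]
        have h7 := eq_inv_of_mul_eq_one_left h6
        rw [h7, mul_inv_rev, mul_inv_rev, hsinv, huinv]
        group
      have h6 : (s * u * s) • c = c := by
        rw [mul_smul, mul_smul, hsc, smul_eq_of_mem hu, hc]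
      rw [h5, mul_smul, mul_smul] at h6
      have h7 : s • (u • c) = u • c := by
        have : u • (u • (s • (u • c))) = u • c := by rw [h6]
        rwa [← mul_smul, mul_self_of_order hu2, one_smul] at this
      have h8 := (smul_eq_iff hs2 _).1 h7
      exact eq_of_mem_mem hPO h8 hsb hs1
    · left; exact h
  -- fixed points for order 7
  have hD2 : ∀ u ∈ (a : Subgroup G), u ≠ 1 → orderOf (s * u) = 7 → 2 ≤ (D u).card := by
    intro u hu hu1 h7
    haveI : Fact (Nat.Prime 7) := ⟨by norm_num⟩
    have hpg : IsPGroup 7 (Subgroup.zpowers (s * u)) := by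
      apply IsPGroup.of_card (n := 1)
      rw [Nat.card_zpowers, h7, pow_one]
    have hmod := hpg.card_modEq_card_fixedPoints (Sylow 2 G)
    rw [hm] at hmod
    -- fixed points lie in `D u`
    have hsubset : MulAction.fixedPoints (Subgroup.zpowers (s * u)) (Sylow 2 G) ⊆ (D u : Set (Sylow 2 G)) := by
      intro d hd
      have hd' : (s * u) • d = d := hd ⟨s * u, Subgroup.mem_zpowers _⟩
      rw [mul_smul] at hd'
      have hud : u • d = s • d := by
        have : s • (s • (u • d)) = s • d := by rw [hd']
        rwa [← mul_smul, mul_self_of_order hs2, one_smul] at this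
      refine Finset.mem_coe.2 (Finset.mem_filter.2 ⟨?_, hud⟩)
      rw [hOm, Finset.mem_sdiff]
      refine ⟨Finset.mem_univ _, ?_⟩
      simp only [Finset.mem_insert, Finset.mem_singleton, not_or]
      refine ⟨?_, ?_, ?_⟩
      · rintro rfl
        rw [smul_eq_of_mem hu] at hud
        exact hca hud.symm
      · rintro rfl
        rw [hsbb] at hud
        exact hu1 (eq_one_of_fix hPO hab hu hud)
      · intro hdc
        rw [hdc, hsc] at hud
        have h9 : u • a = a := smul_eq_of_mem hu
        have h10 : u • c = u • a := hud.trans h9.symm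
        exact hca (smul_left_cancel u h10)
    have hcardle : Nat.card (MulAction.fixedPoints (Subgroup.zpowers (s * u)) (Sylow 2 G)) ≤ (D u).card := by
      rw [Nat.card_coe_set_eq, ← Set.ncard_coe_finset]
      exact Set.ncard_le_ncard hsubset (Finset.finite_toSet _)
    have h2 : 2 ≤ Nat.card (MulAction.fixedPoints (Subgroup.zpowers (s * u)) (Sylow 2 G)) := by
      have : Nat.card (MulAction.fixedPoints (Subgroup.zpowers (s * u)) (Sylow 2 G)) % 7 = 2 := by
        have := hmod.symm
        unfold Nat.ModEq at this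
        omega
      omega
    omega
  -- final count
  set A := (sharp a).filter (fun u => orderOf (s * u) = 7) with hA
  set B := (sharp a).filter (fun u => u • c = b) with hB
  have hBcard : B.card ≤ 1 := by
    rw [Finset.card_le_one]
    intro u hu v hv
    have hu' := Finset.mem_filter.1 hu
    have hv' := Finset.mem_filter.1 hv
    have hua : u ∈ (a : Subgroup G) := (Finset.mem_filter.1 (Finset.mem_erase.1 hu'.1).2).2
    have hva : v ∈ (a : Subgroup G) := (Finset.mem_filter.1 (Finset.mem_erase.1 hv'.1).2).2
    have h1 : (v⁻¹ * u) • c = c := by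
      rw [mul_smul, hu'.2, ← hv'.2, ← mul_smul, inv_mul_cancel, one_smul]
    have h2 := eq_one_of_fix hPO hca.symm ((a : Subgroup G).mul_mem ((a : Subgroup G).inv_mem hva) hua) h1
    rw [inv_mul_eq_one] at h2
    exact h2.symm
  have hsub : sharp a ⊆ A ∪ B := by
    intro u hu
    have hua : u ∈ (a : Subgroup G) := (Finset.mem_filter.1 (Finset.mem_erase.1 hu).2).2
    have hu1 : u ≠ 1 := (Finset.mem_erase.1 hu).1
    rcases horder u hua hu1 with h | h
    · exact Finset.mem_union_left _ (Finset.mem_filter.2 ⟨hu, h⟩)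
    · exact Finset.mem_union_right _ (Finset.mem_filter.2 ⟨hu, h⟩)
  have hAcard : 6 ≤ A.card := by
    have h1 := Finset.card_le_card hsub
    have h2 := Finset.card_union_le A B
    rw [card_sharp, h8] at h1
    omega
  have hAmem : ∀ u ∈ A, u ∈ (a : Subgroup G) ∧ u ≠ 1 ∧ orderOf (s * u) = 7 := by
    intro u hu
    have hu' := Finset.mem_filter.1 hu
    exact ⟨(Finset.mem_filter.1 (Finset.mem_erase.1 hu'.1).2).2, (Finset.mem_erase.1 hu'.1).1, hu'.2⟩
  have hunion : (A.biUnion D).card = ∑ u ∈ A, (D u).card := by
    apply Finset.card_biUnion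
    intro u hu v hv huv
    exact hdisj u (hAmem u hu).1 v (hAmem v hv).1 huv
  have hsubOm : A.biUnion D ⊆ Om := by
    intro d hd
    obtain ⟨u, -, hdu⟩ := Finset.mem_biUnion.1 hd
    exact (Finset.mem_filter.1 hdu).1
  have hle := Finset.card_le_card hsubOm
  have hge : A.card • 2 ≤ ∑ u ∈ A, (D u).card := by
    apply Finset.card_nsmul_le_sum
    intro u hu
    obtain ⟨h1, h2, h3⟩ := hAmem u hu
    exact hD2 u h1 h2 h3
  rw [hOmcard, hunion] at hle
  rw [smul_eq_mul] at hge
  omega

include hPO hne ht in
/-- The case `h = 4` is the alternating group. -/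
theorem equiv_of_four (h4 : hh G = 4) : Nonempty (G ≃* alternatingGroup (Fin 5)) := by
  have hh2 : 2 < hh G := by omega
  have hm : Nat.card (Sylow 2 G) = 5 := by rw [card_sylow_eq hPO hne ht hh2, h4]
  have hcard : Nat.card G = 60 := by rw [card_eq hPO hne ht hh2, h4]
  have hmF : Fintype.card (Sylow 2 G) = 5 := by rw [← Nat.card_eq_fintype_card, hm]
  let φ : G →* Equiv.Perm (Sylow 2 G) := MulAction.toPermHom G (Sylow 2 G)
  have hφ : ∀ x d, φ x d = x • d := fun _ _ => rfl
  have hinj : Function.Injective φ := by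
    rw [injective_iff_map_eq_one]
    intro x hx
    by_contra hx1
    have hfix : ∀ d : Sylow 2 G, x • d = d := fun d => by
      have := congrArg (fun f : Equiv.Perm (Sylow 2 G) => f d) hx
      simpa [hφ] using this
    obtain ⟨a, -⟩ := exists_mem ht
    obtain ⟨b, hb⟩ := hne a
    have hab : a ≠ b := hb.symm
    have hxK : x ∈ KK a b := ⟨hfix a, hfix b⟩
    have hcK := card_KK hPO hne ht hab
    rw [h4] at hcK
    have hord : orderOf x ∣ 3 := by
      have := Subgroup.orderOf_dvd_natCard (KK a b) hxK
      rwa [hcK] at this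
    have hord3 : orderOf x = 3 := by
      rcases (Nat.dvd_prime Nat.prime_three).1 hord with h | h
      · exact absurd (orderOf_eq_one_iff.1 h) hx1
      · exact h
    have hz : Subgroup.zpowers x = KK a b := by
      apply Subgroup.eq_of_le_of_card_ge
      · rw [Subgroup.zpowers_le]; exact hxK
      · rw [Nat.card_zpowers, hord3, hcK]
    -- a third point
    have hex : ∃ c : Sylow 2 G, c ≠ a ∧ c ≠ b := by
      by_contra hno
      push_neg at hno
      have : (Finset.univ : Finset (Sylow 2 G)) ⊆ {a, b} := by
        intro c _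
        by_cases hc : c = a
        · simp [hc]
        · simp [hno c hc]
      have h1 := Finset.card_le_card this
      rw [Finset.card_univ, hmF] at h1
      have h2 : ({a, b} : Finset (Sylow 2 G)).card ≤ 2 := Finset.card_le_two
      omega
    obtain ⟨c, hca, hcb⟩ := hex
    have hle : KK a b ≤ St c := by
      rw [← hz, Subgroup.zpowers_le]
      exact hfix c
    rcases fix_KK hPO hne ht hh2 hab hle with h | h
    · exact hca h
    · exact hcb h
  have hRcard : Nat.card φ.range = 60 := by
    rw [← hcard]
    exact Nat.card_congr (MonoidHom.ofInjective hinj).symm.toEquiv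
  have hPcard : Nat.card (Equiv.Perm (Sylow 2 G)) = 120 := by
    rw [Nat.card_eq_fintype_card, Fintype.card_perm, hmF]
    rfl
  have hidx : φ.range.index = 2 := by
    have h1 := Subgroup.index_mul_card φ.range
    rw [hRcard, hPcard] at h1
    omega
  have hR : φ.range = alternatingGroup (Sylow 2 G) := Equiv.Perm.eq_alternatingGroup_of_index_eq_two hidx
  let e1 : G ≃* φ.range := MonoidHom.ofInjective hinj
  let e2 : φ.range ≃* alternatingGroup (Sylow 2 G) := MulEquiv.subgroupCongr hR
  let e3 : Sylow 2 G ≃ Fin 5 := Fintype.equivFinOfCardEq hmF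
  exact ⟨e1.trans (e2.trans (Equiv.altCongrHom e3))⟩

end final

/-- Main theorem: non-solvable, all non-identity elements of prime order, exactly three primes. -/
theorem equiv_alternating {G : Type u} [Group G] [Finite G] (hns : ¬ Group.IsSolvable G) (hPO : PO G)
    (h3 : (Nat.card G).primeFactors.card = 3) : Nonempty (G ≃* alternatingGroup (Fin 5)) := by
  have hodd : ¬ Odd (Nat.card G) := fun h => hns (isSolvable_of_odd _ G rfl h hPO h3.le)
  have heven : 2 ∣ Nat.card G := (Nat.not_odd_iff_even.1 hodd).two_dvd
  haveI : Fact (Nat.Prime 2) := ⟨Nat.prime_two⟩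
  obtain ⟨t, ht⟩ := exists_prime_orderOf_dvd_card' 2 heven
  have hsub : ∀ d : ℕ, d ∣ Nat.card G → d.primeFactors.card ≤ 3 := by
    intro d hd
    have hne : Nat.card G ≠ 0 := Nat.card_pos.ne'
    exact (Finset.card_le_card (Nat.primeFactors_mono hd hne)).trans h3.le
  have hoddOf : ∀ (K : Type u) [Group K] [Finite K], ¬ 2 ∣ Nat.card K → Odd (Nat.card K) := by
    intro K _ _ h
    exact Nat.not_even_iff_odd.1 (fun he => h he.two_dvd)
  -- Sylow 2-subgroups are not normal
  have hne : ∀ a : Sylow 2 G, ∃ b : Sylow 2 G, b ≠ a := by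
    intro a
    by_contra hno
    push_neg at hno
    haveI hsingle : Subsingleton (Sylow 2 G) := ⟨fun x y => (hno x).trans (hno y).symm⟩
    haveI hnorm : (a : Subgroup G).Normal := Sylow.normal_of_subsingleton a
    apply hns
    have hsa : Group.IsSolvable (a : Subgroup G) := by
      have : Group.IsNilpotent (a : Subgroup G) := a.isPGroup'.isNilpotent
      infer_instance
    have hq : ¬ 2 ∣ Nat.card (G ⧸ (a : Subgroup G)) := by
      rw [← Subgroup.index_eq_card]
      exact a.not_dvd_index
    have hqd : Nat.card (G ⧸ (a : Subgroup G)) ∣ Nat.card G := by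
      rw [← Subgroup.index_eq_card]; exact Subgroup.index_dvd_card _
    have hsq : Group.IsSolvable (G ⧸ (a : Subgroup G)) :=
      isSolvable_of_odd _ _ rfl (hoddOf _ hq) (hPO.quotient _) (hsub _ hqd)
    exact Group.isSolvable_of_ker_le_range (G' := ↥(a : Subgroup G)) (G'' := G ⧸ (a : Subgroup G))
      (a : Subgroup G).subtype (QuotientGroup.mk' (a : Subgroup G)) (by
      intro x hx
      rw [MonoidHom.mem_ker, QuotientGroup.mk'_apply, QuotientGroup.eq_one_iff] at hx
      exact ⟨⟨x, hx⟩, rfl⟩)
  -- `h = 2` is impossible by Burnside transfer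
  have hh2 : 2 < hh G := by
    obtain ⟨a, ha⟩ := exists_mem ht
    have hcd := card_sylow a
    have h1 : hh G ≠ 1 := by
      intro h
      rw [h] at hcd
      have h2 : (a : Subgroup G) = ⊥ := Subgroup.card_eq_one.1 hcd
      rw [h2] at ha
      have : t = 1 := by simpa using ha
      rw [this] at ht
      simp at ht
    have h2 : hh G ≠ 2 := by
      intro h
      exfalso
      have hst := card_stab hPO hne ht a
      rw [h] at hst
      have hst' : MulAction.stabilizer G a = (a : Subgroup G) := by
        symm
        apply Subgroup.eq_of_le_of_card_ge (le_stab a)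
        rw [hst, card_sylow a, h]
      have hP : Subgroup.normalizer ((a : Subgroup G) : Set G) ≤ Subgroup.centralizer ((a : Subgroup G) : Set G) := by
        intro x hx
        have hx' : x ∈ MulAction.stabilizer G a := Sylow.smul_eq_iff_mem_normalizer.2 hx
        rw [hst'] at hx'
        rw [Subgroup.mem_centralizer_iff]
        intro y hy
        exact comm_of_mem hPO a hy hx'
      have hcompl := MonoidHom.ker_transferSylow_isComplement' a hP
      set K := (MonoidHom.transferSylow a hP).ker with hK
      have hcardK : Nat.card K * Nat.card (a : Subgroup G) = Nat.card G := hcompl.card_mul_card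
      have hKodd : Odd (Nat.card K) := by
        apply hoddOf
        intro h2K
        have hidx := a.not_dvd_index
        apply hidx
        have hi : (a : Subgroup G).index = Nat.card K := by
          have h5 := Subgroup.card_mul_index (a : Subgroup G)
          rw [← hcardK, mul_comm] at h5
          exact (Nat.eq_of_mul_eq_mul_right Nat.card_pos h5)
        rw [hi]
        exact h2K
      have hKs : Group.IsSolvable K :=
        isSolvable_of_odd _ K rfl hKodd (hPO.subgroup K) (hsub _ (Subgroup.card_subgroup_dvd_card K))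
      apply hns
      have hsa : Group.IsSolvable (a : Subgroup G) := by
        have : Group.IsNilpotent (a : Subgroup G) := a.isPGroup'.isNilpotent
        infer_instance
      have hs2 : Group.IsSolvable (MonoidHom.transferSylow a hP).range := by
        infer_instance
      exact Group.isSolvable_of_ker_le_range K.subtype (MonoidHom.transferSylow a hP).rangeRestrict (by
        intro x hx
        have : x ∈ K := by
          rw [hK, MonoidHom.mem_ker]
          have := congrArg Subtype.val (MonoidHom.mem_ker.1 hx)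
          simpa using this
        exact ⟨⟨x, this⟩, rfl⟩)
    have h0 : 0 < hh G := by unfold hh; positivity
    have hdvd2 : 4 ∣ hh G ∨ hh G = 1 ∨ hh G = 2 := by
      unfold hh
      generalize (Nat.card G).factorization 2 = e
      rcases e with _ | _ | e
      · right; left; simp
      · right; right; simp
      · left
        rw [pow_add, pow_add]
        exact ⟨2 ^ e, by ring⟩
    rcases hdvd2 with h4 | h4 | h4
    · obtain ⟨k, hk⟩ := h4
      omega
    · exact absurd h4 h1
    · exact absurd h4 h2
  -- numerics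
  have hcard := card_eq hPO hne ht hh2
  obtain ⟨e, he⟩ : ∃ e, hh G = 2 ^ e := ⟨_, rfl⟩
  have he2 : 2 ≤ e := by
    by_contra hlt
    have : e = 0 ∨ e = 1 := by omega
    rcases this with rfl | rfl <;> rw [he] at hh2 <;> norm_num at hh2
  set h := hh G with hhdef
  have hc1 : (h + 1).Coprime (h * (h - 1)) := by
    have h1 : (h + 1).Coprime h := by simp
    have h2 : (h + 1).Coprime (h - 1) := by
      have h3 : (h + 1).gcd (h - 1) ∣ 2 := by
        have h4 : 2 = (h + 1) - (h - 1) := by omega
        rw [h4]
        exact Nat.dvd_sub (Nat.gcd_dvd_left _ _) (Nat.gcd_dvd_right _ _)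
      have h5 : Odd (h + 1) := by
        rw [he]
        exact Even.add_one ((Nat.even_pow' (by omega)).2 even_two)
      have h6 : (h + 1).gcd (h - 1) ≠ 2 := by
        intro h7
        have : 2 ∣ h + 1 := by rw [← h7]; exact Nat.gcd_dvd_left _ _
        exact (Nat.not_even_iff_odd.2 h5) (even_iff_two_dvd.2 this)
      have h8 := (Nat.dvd_prime Nat.prime_two).1 h3
      rcases h8 with h8 | h8
      · exact h8
      · exact absurd h8 h6
    exact Nat.Coprime.mul_right h1 h2
  have hc2 : h.Coprime (h - 1) := by
    have : (h - 1).Coprime (h - 1 + 1) := by simp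
    rw [Nat.sub_add_cancel (by omega)] at this
    exact this.symm
  have hpf : (Nat.card G).primeFactors.card =
      (h + 1).primeFactors.card + (h.primeFactors.card + (h - 1).primeFactors.card) := by
    have d1 : Disjoint (h + 1).primeFactors (h * (h - 1)).primeFactors := hc1.disjoint_primeFactors
    rw [hc2.primeFactors_mul] at d1
    rw [hcard, hc1.primeFactors_mul, hc2.primeFactors_mul,
      Finset.card_union_of_disjoint d1,
      Finset.card_union_of_disjoint (hc2.disjoint_primeFactors)]
  have hp1 : 1 ≤ (h + 1).primeFactors.card :=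
    Finset.card_pos.2 (Nat.nonempty_primeFactors.2 (by omega))
  have hp2 : 1 ≤ h.primeFactors.card := Finset.card_pos.2 (Nat.nonempty_primeFactors.2 (by omega))
  have hp3 : 1 ≤ (h - 1).primeFactors.card := Finset.card_pos.2 (Nat.nonempty_primeFactors.2 (by omega))
  have hi1 : IsPrimePow (h + 1) := isPrimePow_iff_card_primeFactors_eq_one.2 (by omega)
  have hi3 : IsPrimePow (h - 1) := isPrimePow_iff_card_primeFactors_eq_one.2 (by omega)
  rw [he] at hi1 hi3
  rcases numeric he2 hi3 hi1 with rfl | rfl
  · exact equiv_of_four hPO hne ht (he.trans (by norm_num))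
  · exact (false_of_eight hPO hne ht (he.trans (by norm_num))).elim

end Cfsg.Agent.Lib.Nilpotent.PrimeOrderMain
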