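import Mathlib
import Cfsg.Agent.Lib.Nilpotent.Subnormal

/-!
# More on subnormality: sharpened forms of Wielandt's criterion
-/

namespace Cfsg.Agent.Lib.Nilpotent.Subnormal2

open Cfsg.Agent.Lib.Nilpotent.Subnormal
open scoped Pointwise

variable {G : Type*} [Group G]

/-- The conjugate of a maximal subgroup of `Y`, by an element of `Y`, is such. -/
theorem isMaxIn_cj {M Y : Subgroup G} (hM : IsMaxIn M Y) {x : G} (hxY : x ∈ Y) :
    IsMaxIn (cj x M) Y := by
  refine ⟨lt_of_le_of_ne ?_ ?_, ?_⟩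
  · rw [← cj_eq_self_of_mem hxY]
    exact cj_mono x hM.1.le
  · intro hEq
    apply hM.1.ne
    have := congrArg (cj x⁻¹) hEq
    rwa [← cj_mul, inv_mul_cancel, cj_one, cj_eq_self_of_mem (Y.inv_mem hxY)] at this
  · intro X hX hXY
    have h1 : M ≤ cj x⁻¹ X := by
      rw [show M = cj x⁻¹ (cj x M) by rw [← cj_mul, inv_mul_cancel, cj_one]]
      exact cj_mono _ hX
    have h2 : cj x⁻¹ X < Y := by
      refine lt_of_le_of_ne ?_ ?_
      · rw [← cj_eq_self_of_mem (Y.inv_mem hxY)]
        exact cj_mono _ hXY.le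
      · intro hEq
        apply hXY.ne
        have := congrArg (cj x) hEq
        rwa [← cj_mul, mul_inv_cancel, cj_one, cj_eq_self_of_mem hxY] at this
    have h3 := hM.2 _ h1 h2
    rw [← h3, ← cj_mul, mul_inv_cancel, cj_one]

/-- The normalizer in `Y` of a maximal subgroup `M` of `Y` is `M`, if `M` is not normal in `Y`. -/
theorem mem_of_mem_normalizer_of_not_normalIn {M Y : Subgroup G} (hM : IsMaxIn M Y)
    (hnot : ¬ NormalIn M Y) {x : G} (hxY : x ∈ Y) (hx : x ∈ Subgroup.normalizer (M : Set G)) :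
    x ∈ M := by
  by_contra hxnot
  have hMle : M ≤ Y ⊓ Subgroup.normalizer (M : Set G) :=
    le_inf hM.1.le Subgroup.le_normalizer
  have hYN : Y ⊓ Subgroup.normalizer (M : Set G) = Y := by
    by_contra hne2
    have hlt : Y ⊓ Subgroup.normalizer (M : Set G) < Y := lt_of_le_of_ne inf_le_left hne2
    have := hM.2 _ hMle hlt
    have hxN' : x ∈ Y ⊓ Subgroup.normalizer (M : Set G) := ⟨hxY, hx⟩
    rw [this] at hxN'
    exact hxnot hxN'
  exact hnot (normalIn_of_le_normalizer hM.1.le (inf_eq_left.mp hYN))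

variable [Finite G]

/-- In the setting of the zipper lemma: if `x ∈ Y` and the conjugate `x • A` lies in the
unique maximal subgroup `M` over `A`, then `x ∈ M`. -/
theorem mem_of_cj_le_of_zipper {A M Y : Subgroup G} (hAY : A ≤ Y) (hbelow : SNBelow A Y)
    (hnot : ¬ SN A Y) (hM : IsMaxIn M Y) (hAM : A ≤ M) {x : G} (hxY : x ∈ Y)
    (hx : cj x A ≤ M) : x ∈ M := by
  have hmax : IsMaxIn (cj x⁻¹ M) Y := isMaxIn_cj hM (Y.inv_mem hxY)
  have hAx : A ≤ cj x⁻¹ M := by
    rw [← cj_le_iff]; exact hx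
  have hEq : M = cj x⁻¹ M := zipperIn Y A hAY hbelow hnot M _ hM hmax hAM hAx
  have hxN : x⁻¹ ∈ Subgroup.normalizer (M : Set G) := mem_normalizer_of_cj_eq hEq.symm
  have hMnotn : ¬ NormalIn M Y := by
    intro hn
    exact hnot ((hbelow M hAM hM.1).trans hn.sn)
  exact mem_of_mem_normalizer_of_not_normalIn hM hMnotn hxY (by simpa using Subgroup.inv_mem _ hxN)

/-- A sharpening of Wielandt's criterion, relative version. -/
theorem criterion_conj_in (Y A : Subgroup G) (hAY : A ≤ Y)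
    (h : ∀ a ∈ A, ∀ g ∈ Y, SN A (A ⊔ cj (g⁻¹ * a * g) A)) : SN A Y := by
  induction Y using WellFoundedLT.induction with
  | ind Y ih =>
    by_contra hnot
    have hbelow : SNBelow A Y := fun X hX hXY =>
      ih X hXY hX (fun a ha g hg => h a ha g (hXY.le hg))
    have hAne : A ≠ Y := by
      rintro rfl
      exact hnot (SN.refl _)
    obtain ⟨M, hM, hAM⟩ := exists_isMaxIn_ge (lt_of_le_of_ne hAY hAne)
    have hall : ∀ a ∈ A, ∀ g ∈ Y, g⁻¹ * a * g ∈ M := by
      intro a ha g hg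
      have hb : g⁻¹ * a * g ∈ Y := Y.mul_mem (Y.mul_mem (Y.inv_mem hg) (hAY ha)) hg
      have hle : A ⊔ cj (g⁻¹ * a * g) A ≤ Y := by
        refine sup_le hAY ?_
        rw [← cj_eq_self_of_mem hb]
        exact cj_mono _ hAY
      by_cases hEq : A ⊔ cj (g⁻¹ * a * g) A = Y
      · exact absurd (hEq ▸ h a ha g hg) hnot
      · obtain ⟨M', hM', hleM'⟩ := exists_isMaxIn_ge (lt_of_le_of_ne hle hEq)
        have hMM' : M' = M :=
          zipperIn Y A hAY hbelow hnot M' M hM' hM (le_sup_left.trans hleM') hAM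
        rw [hMM'] at hleM'
        exact mem_of_cj_le_of_zipper hAY hbelow hnot hM hAM hb (le_sup_right.trans hleM')
    have hnclle : ncl A Y ≤ M := by
      apply ncl_le
      intro y hy x hx
      rw [mem_cj] at hx
      have h1 := hall _ hx y⁻¹ (Y.inv_mem hy)
      have h2 : y⁻¹⁻¹ * (y⁻¹ * x * y) * y⁻¹ = x := by group
      rwa [h2] at h1
    have hncllt : ncl A Y < Y := lt_of_le_of_lt hnclle hM.1
    have hAncl : SN A (ncl A Y) :=
      ih _ hncllt (le_ncl A Y) (fun a ha g hg => h a ha g (hncllt.le hg))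
    exact hnot (hAncl.trans (ncl_normalIn hAY).sn)

end Cfsg.Agent.Lib.Nilpotent.Subnormal2
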